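import Mathlib

/-!
# Binary coset actions: the tuple criterion

`Bin H` says that the coset action of `G` on `G ⧸ H` is binary.  `Crit H` is the consequence of
`Bin H` used to rule out binarity: for every coset `c H` there is `g ∈ c H` fixing every point
fixed by some element of `c H`.
-/

set_option autoImplicit false
set_option linter.style.longLine false
set_option linter.style.haveILetI false

namespace Cfsg.Agent.Lib.Binary.Core

variable {G : Type*} [Group G]

/-- The coset action on `G ⧸ H` is binary. -/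
def Bin (H : Subgroup G) : Prop :=
  ∀ (n : ℕ) (I J : Fin n → G ⧸ H), 2 ≤ n →
    (∀ i j : Fin n, i ≠ j → ∃ g : G, g • I i = J i ∧ g • I j = J j) → ∃ g : G, ∀ i, g • I i = J i

/-- `g` fixes every coset fixed by `s`. -/
def inK (H : Subgroup G) (s g : G) : Prop := ∀ x : G, x⁻¹ * s * x ∈ H → x⁻¹ * g * x ∈ H

/-- The tuple criterion. -/
def Crit (H : Subgroup G) : Prop :=
  ∀ c : G, ∃ g : G, c⁻¹ * g ∈ H ∧ ∀ s : G, c⁻¹ * s ∈ H → inK H s g

lemma smul_mk_eq_mk_iff (H : Subgroup G) (s x y : G) :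
    s • (QuotientGroup.mk x : G ⧸ H) = QuotientGroup.mk y ↔ x⁻¹ * s⁻¹ * y ∈ H := by
  rw [MulAction.Quotient.smul_mk, smul_eq_mul]
  rw [QuotientGroup.eq]
  simp [mul_assoc]

lemma fix_iff (H : Subgroup G) (s x : G) :
    s • (QuotientGroup.mk x : G ⧸ H) = QuotientGroup.mk x ↔ x⁻¹ * s * x ∈ H := by
  rw [MulAction.Quotient.smul_mk, smul_eq_mul, QuotientGroup.eq]
  constructor
  · intro h
    have := H.inv_mem h
    simpa [mul_assoc] using this
  · intro h
    have := H.inv_mem h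
    simpa [mul_assoc] using this

/-- `Bin` for tuples indexed by an arbitrary finite type with at least two elements. -/
lemma Bin.of_index {H : Subgroup G} (hB : Bin H) {ι : Type*} [Finite ι] [Nontrivial ι]
    (I J : ι → G ⧸ H)
    (h : ∀ i j : ι, i ≠ j → ∃ g : G, g • I i = J i ∧ g • I j = J j) :
    ∃ g : G, ∀ i, g • I i = J i := by
  have hcard : 1 < Nat.card ι := Finite.one_lt_card
  let e : ι ≃ Fin (Nat.card ι) := Finite.equivFin ι
  obtain ⟨g, hg⟩ := hB (Nat.card ι) (fun k => I (e.symm k)) (fun k => J (e.symm k)) hcard (by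
    intro i j hij
    exact h _ _ (fun h' => hij (e.symm.injective h')))
  refine ⟨g, fun i => ?_⟩
  have := hg (e i)
  simpa using this

theorem Bin.crit [Finite G] {H : Subgroup G} (hB : Bin H) : Crit H := by
  classical
  intro c
  let ω : G ⧸ H := QuotientGroup.mk 1
  let P : (G ⧸ H) → Prop := fun p => ∃ s : G, c⁻¹ * s ∈ H ∧ s • p = p
  let I : Bool ⊕ (G ⧸ H) → G ⧸ H := fun i =>
    match i with
    | Sum.inl _ => ω
    | Sum.inr p => if P p then p else ω
  let J : Bool ⊕ (G ⧸ H) → G ⧸ H := fun i =>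
    match i with
    | Sum.inl _ => c • ω
    | Sum.inr p => if P p then p else c • ω
  have hsω : ∀ s : G, c⁻¹ * s ∈ H → s • ω = c • ω := by
    intro s hs
    simp only [ω, MulAction.Quotient.smul_mk, smul_eq_mul, mul_one]
    exact (QuotientGroup.eq.2 (by simpa using H.inv_mem hs)).symm ▸ rfl
  -- every index is either "ω-type" or "fixed-type"
  have htype : ∀ i : Bool ⊕ (G ⧸ H), (I i = ω ∧ J i = c • ω) ∨ (∃ p, P p ∧ I i = p ∧ J i = p) := by
    intro i
    rcases i with b | p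
    · exact Or.inl ⟨rfl, rfl⟩
    · by_cases hp : P p
      · exact Or.inr ⟨p, hp, by simp [I, hp], by simp [J, hp]⟩
      · exact Or.inl ⟨by simp [I, hp], by simp [J, hp]⟩
  haveI : Nontrivial (Bool ⊕ (G ⧸ H)) := ⟨⟨Sum.inl true, Sum.inl false, by simp⟩⟩
  obtain ⟨g, hg⟩ := Bin.of_index hB I J (by
    intro i j _
    rcases htype i with ⟨hi1, hi2⟩ | ⟨p, ⟨s, hs, hsp⟩, hi1, hi2⟩ <;>
    rcases htype j with ⟨hj1, hj2⟩ | ⟨p', ⟨s', hs', hsp'⟩, hj1, hj2⟩
    · exact ⟨c, by rw [hi1, hi2], by rw [hj1, hj2]⟩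
    · exact ⟨s', by rw [hi1, hi2, hsω s' hs'], by rw [hj1, hj2, hsp']⟩
    · exact ⟨s, by rw [hi1, hi2, hsp], by rw [hj1, hj2, hsω s hs]⟩
    · exact ⟨1, by rw [hi1, hi2, one_smul], by rw [hj1, hj2, one_smul]⟩)
  refine ⟨g, ?_, ?_⟩
  · have := hg (Sum.inl true)
    simp only [I, J, ω, MulAction.Quotient.smul_mk, smul_eq_mul, mul_one] at this
    have h2 := QuotientGroup.eq.1 this
    simpa using H.inv_mem h2
  · intro s hs x hx
    have hP : P (QuotientGroup.mk x) := ⟨s, hs, (fix_iff H s x).2 hx⟩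
    have := hg (Sum.inr (QuotientGroup.mk x))
    simp only [I, J, hP, if_true] at this
    exact (fix_iff H g x).1 this

/-- The conjugate subgroup `a H a⁻¹`. -/
def cj (a : G) (H : Subgroup G) : Subgroup G := H.map (MulAut.conj a).toMonoidHom

lemma mem_cj {a y : G} {H : Subgroup G} : y ∈ cj a H ↔ a⁻¹ * y * a ∈ H := by
  constructor
  · rintro ⟨h, hh, rfl⟩
    simpa [mul_assoc] using hh
  · intro h
    exact ⟨_, h, by simp [mul_assoc]⟩

lemma cj_cj (a b : G) (H : Subgroup G) : cj a (cj b H) = cj (a * b) H := by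
  ext y
  simp only [mem_cj]
  rw [show (a * b)⁻¹ * y * (a * b) = b⁻¹ * (a⁻¹ * y * a) * b by group]

lemma cj_inv_cj (a : G) (H : Subgroup G) : cj a⁻¹ (cj a H) = H := by
  ext y
  simp only [mem_cj]
  rw [show a⁻¹ * (a⁻¹⁻¹ * y * a⁻¹) * a = y by group]

lemma cj_ne_top {a : G} {H : Subgroup G} (hH : H ≠ ⊤) : cj a H ≠ ⊤ := by
  intro h
  apply hH
  rw [← cj_inv_cj a H, h]
  ext y
  simp [mem_cj]

lemma card_cj (a : G) (H : Subgroup G) : Nat.card (cj a H) = Nat.card H :=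
  Nat.card_congr (Subgroup.equivMapOfInjective H _ (MulAut.conj a).injective).toEquiv.symm

/-- `cj a H` is isomorphic to `H`. -/
noncomputable def cjEquiv (a : G) (H : Subgroup G) : H ≃* cj a H :=
  H.equivMapOfInjective _ (MulAut.conj a).injective

lemma Crit.conj {H : Subgroup G} (hC : Crit H) (a : G) : Crit (cj a H) := by
  intro c
  obtain ⟨g, hg1, hg2⟩ := hC (a⁻¹ * c * a)
  refine ⟨a * g * a⁻¹, ?_, ?_⟩
  · rw [mem_cj]
    rw [show a⁻¹ * (c⁻¹ * (a * g * a⁻¹)) * a = (a⁻¹ * c * a)⁻¹ * g by group]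
    exact hg1
  · intro s hs x hx
    rw [mem_cj] at hs hx ⊢
    have h1 : (a⁻¹ * c * a)⁻¹ * (a⁻¹ * s * a) ∈ H := by
      rw [show (a⁻¹ * c * a)⁻¹ * (a⁻¹ * s * a) = a⁻¹ * (c⁻¹ * s) * a by group]
      exact hs
    have h2 := hg2 _ h1 (a⁻¹ * x * a) (by
      rw [show (a⁻¹ * x * a)⁻¹ * (a⁻¹ * s * a) * (a⁻¹ * x * a) = a⁻¹ * (x⁻¹ * s * x) * a by group]
      exact hx)
    rw [show a⁻¹ * (x⁻¹ * (a * g * a⁻¹) * x) * a = (a⁻¹ * x * a)⁻¹ * g * (a⁻¹ * x * a) by group]
    exact h2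

/-- Conjugates of binary subgroups are binary. -/
lemma Bin.conj {H : Subgroup G} (hB : Bin H) (a : G) : Bin (cj a H) := by
  intro n I J hn hp
  -- transport cosets by `x (a H a⁻¹) ↦ x a H`
  have key : ∀ p : G ⧸ cj a H, ∃ x : G, p = QuotientGroup.mk x := fun p => by
    obtain ⟨x, hx⟩ := QuotientGroup.mk_surjective p
    exact ⟨x, hx.symm⟩
  choose X hX using fun i => key (I i)
  choose Y hY using fun i => key (J i)
  have tr : ∀ s x y : G, s • (QuotientGroup.mk x : G ⧸ cj a H) = QuotientGroup.mk y ↔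
      s • (QuotientGroup.mk (x * a) : G ⧸ H) = QuotientGroup.mk (y * a) := by
    intro s x y
    rw [smul_mk_eq_mk_iff, smul_mk_eq_mk_iff, mem_cj]
    rw [show a⁻¹ * (x⁻¹ * s⁻¹ * y) * a = (x * a)⁻¹ * s⁻¹ * (y * a) by group]
  obtain ⟨g, hg⟩ := hB n (fun i => QuotientGroup.mk (X i * a)) (fun i => QuotientGroup.mk (Y i * a)) hn (by
    intro i j hij
    obtain ⟨g, h1, h2⟩ := hp i j hij
    rw [hX i, hY i, tr] at h1
    rw [hX j, hY j, tr] at h2
    exact ⟨g, h1, h2⟩)
  refine ⟨g, fun i => ?_⟩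
  rw [hX i, hY i, tr]
  exact hg i

theorem bin_bot : Bin (⊥ : Subgroup G) := by
  intro n I J hn hp
  have hn0 : 0 < n := by omega
  let i₀ : Fin n := ⟨0, hn0⟩
  let i₁ : Fin n := ⟨1, by omega⟩
  have h01 : i₀ ≠ i₁ := by simp [i₀, i₁, Fin.ext_iff]
  obtain ⟨g, hg0, -⟩ := hp i₀ i₁ h01
  refine ⟨g, fun i => ?_⟩
  by_cases hi : i = i₀
  · rw [hi]; exact hg0
  · obtain ⟨g', hg'0, hg'i⟩ := hp i₀ i (Ne.symm hi)
    have : g = g' := by
      obtain ⟨x, hx⟩ := QuotientGroup.mk_surjective (I i₀)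
      rw [← hx] at hg0 hg'0
      have h3 : g • (QuotientGroup.mk x : G ⧸ (⊥ : Subgroup G)) = g' • QuotientGroup.mk x := by
        rw [hg0, hg'0]
      rw [MulAction.Quotient.smul_mk, MulAction.Quotient.smul_mk, smul_eq_mul, smul_eq_mul,
        QuotientGroup.eq, Subgroup.mem_bot] at h3
      have h4 : (g * x)⁻¹ * (g' * x) = 1 := h3
      have h5 : g * x = g' * x := by
        rw [inv_mul_eq_one] at h4
        exact h4
      exact mul_right_cancel h5
    rw [this]
    exact hg'i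

/-- The subgroup of elements fixing all the cosets fixed by `s`. -/
def Ksub (H : Subgroup G) (s : G) : Subgroup G where
  carrier := {g | inK H s g}
  mul_mem' := by
    intro a b ha hb x hx
    have := H.mul_mem (ha x hx) (hb x hx)
    rwa [show x⁻¹ * a * x * (x⁻¹ * b * x) = x⁻¹ * (a * b) * x by group] at this
  one_mem' := by
    intro x _
    simp
  inv_mem' := by
    intro a ha x hx
    have := H.inv_mem (ha x hx)
    rwa [show (x⁻¹ * a * x)⁻¹ = x⁻¹ * a⁻¹ * x by group] at this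

lemma mem_Ksub {H : Subgroup G} {s g : G} : g ∈ Ksub H s ↔ inK H s g := Iff.rfl

lemma self_mem_Ksub (H : Subgroup G) (s : G) : s ∈ Ksub H s := fun _ h => h

/-- The centraliser of `s` normalises `K(s)`. -/
lemma inK_conj_of_commute {H : Subgroup G} {s g v : G} (h : inK H s g) (hv : v * s = s * v) :
    inK H s (v * g * v⁻¹) := by
  intro x hx
  have h1 := h (v⁻¹ * x) (by
    rw [show (v⁻¹ * x)⁻¹ * s * (v⁻¹ * x) = x⁻¹ * (v * s * v⁻¹) * x by group]
    rw [hv]
    simpa using hx)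
  rwa [show (v⁻¹ * x)⁻¹ * g * (v⁻¹ * x) = x⁻¹ * (v * g * v⁻¹) * x by group] at h1

lemma inK_conj {H : Subgroup G} {s g a : G} (h : inK H (a * s * a⁻¹) g) :
    inK H s (a⁻¹ * g * a) := by
  intro x hx
  have h1 := h (a * x) (by
    rw [show (a * x)⁻¹ * (a * s * a⁻¹) * (a * x) = x⁻¹ * s * x by group]
    exact hx)
  rwa [show (a * x)⁻¹ * g * (a * x) = x⁻¹ * (a⁻¹ * g * a) * x by group] at h1

end Cfsg.Agent.Lib.Binary.Core
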