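import Cfsg.Agent.Lib.Binary.Small2

/-!
# Binary actions of `PSL(2, F)`: the tetrahedral stabiliser for `q = 7`
-/

set_option autoImplicit false
set_option linter.style.longLine false
set_option linter.style.haveILetI false
set_option linter.unusedSectionVars false
set_option linter.unusedVariables false
set_option linter.style.multiGoal false
set_option linter.unusedSimpArgs false
set_option linter.unnecessarySeqFocus false
set_option linter.unusedDecidableInType false
set_option linter.unusedFintypeInType false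

namespace Cfsg.Agent.Lib.Binary.A4

open Matrix Matrix.SpecialLinearGroup Subgroup
open scoped MatrixGroups
open Cfsg.Agent.Lib.PSL2.Basic Cfsg.Agent.Lib.PSL2.Conj Cfsg.Agent.Lib.PSL2.Members
open Cfsg.Agent.Lib.PSL2.FourGroup
open Cfsg.Agent.Lib.PSL2.KleinPairs
open Cfsg.Agent.Lib.PSL2.Torus (mul_self_eq_neg_one_iff)
open Cfsg.Agent.Lib.PSL2.TraceZero (exists_conj_of_tr_eq_zero)
open Cfsg.Agent.Lib.Binary.Core Cfsg.Agent.Lib.Binary.Uni Cfsg.Agent.Lib.Binary.Cyc
open Cfsg.Agent.Lib.Binary.Inv Cfsg.Agent.Lib.Binary.Small Cfsg.Agent.Lib.Binary.Small2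

abbrev L4 : Type := alternatingGroup (Fin 4)

def i₀ : L4 := ⟨Equiv.swap 0 1 * Equiv.swap 2 3, Equiv.Perm.mem_alternatingGroup.2 (by decide)⟩
def r₀ : L4 := ⟨Equiv.swap 0 1 * Equiv.swap 1 2, Equiv.Perm.mem_alternatingGroup.2 (by decide)⟩
def j₀ : L4 := r₀ * i₀ * r₀⁻¹
def k₀ : L4 := r₀ * j₀ * r₀⁻¹

lemma f_i1 : i₀ ≠ 1 := by decide +kernel
lemma f_j1 : j₀ ≠ 1 := by decide +kernel
lemma f_ii : i₀ * i₀ = 1 := by decide +kernel
lemma f_jj : j₀ * j₀ = 1 := by decide +kernel
lemma f_ij : i₀ * j₀ = j₀ * i₀ := by decide +kernel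
lemma f_ne : i₀ ≠ j₀ := by decide +kernel
lemma f_k : k₀ = i₀ * j₀ := by decide +kernel
lemma f_rk : r₀ * k₀ * r₀⁻¹ = i₀ := by decide +kernel
lemma f_dec : ∀ x : L4, ∃ (a b : Fin 2) (m : Fin 3), x = i₀ ^ (a : ℕ) * j₀ ^ (b : ℕ) * r₀ ^ (m : ℕ) := by
  decide +kernel
lemma f_no : ∀ y : L4, y * y = 1 → y * i₀ * y⁻¹ ≠ j₀ := by decide +kernel
lemma f_ord : ∀ y : L4, y * y * y = 1 ∨ y * y = 1 := by decide +kernel
lemma f_comm : ∀ y z : L4, y * y = 1 → z * z = 1 → y * z = z * y := by decide +kernel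
lemma f_three : ∀ y : L4, y * i₀ * y⁻¹ = j₀ → y * y * y = 1 ∧ y ≠ 1 := by decide +kernel

variable {F : Type*} [Field F] [Fintype F]

lemma seven_eq_zero (hq : Fintype.card F = 7) : (7 : F) = 0 := by
  have := Nat.cast_card_eq_zero F
  rw [hq] at this
  exact_mod_cast this

lemma two_ne_of_seven (hq : Fintype.card F = 7) : (2 : F) ≠ 0 := by
  intro h
  have h7 := seven_eq_zero hq
  apply one_ne_zero (α := F)
  linear_combination h7 - 3 * h

theorem no_order6 (hq : Fintype.card F = 7) {G R : SL(2, F)} (h1 : mkP G ≠ 1)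
    (hGG : mkP G * mkP G = 1) (h3 : mkP R ^ 3 = 1) (h4 : mkP R ≠ 1)
    (hc : mkP G * mkP R = mkP R * mkP G) : False := by
  have h70 := seven_eq_zero hq
  have h2 := two_ne_of_seven hq
  have htG := tr_zero_of_invol h2 h1 hGG
  have htR : tr R ^ 2 = 1 := (Cfsg.Agent.Lib.PSL2.TraceOrder.tr_of_cube h3).resolve_left h4
  rw [← map_mul, ← map_mul, mkP_eq_iff] at hc
  rcases hc with hc | hc
  · have hNG := nc_of_tr_zero h2 htG
    obtain ⟨α, β, hR⟩ := exists_eq_of_commute hNG hc.symm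
    have e00 : R.1 0 0 = α + β * G.1 0 0 := by rw [hR]; simp
    have e01 : R.1 0 1 = β * G.1 0 1 := by rw [hR]; simp
    have e10 : R.1 1 0 = β * G.1 1 0 := by rw [hR]; simp
    have e11 : R.1 1 1 = α + β * G.1 1 1 := by rw [hR]; simp
    have hdR := det_entries R
    have hdG := det_entries G
    have htG' : G.1 0 0 + G.1 1 1 = 0 := htG
    have htR' : (R.1 0 0 + R.1 1 1) ^ 2 = 1 := htR
    rw [e00, e01, e10, e11] at hdR
    rw [e00, e11] at htR'
    have h5 : α ^ 2 + β ^ 2 = 1 := by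
      have : G.1 1 1 = - G.1 0 0 := by linear_combination htG'
      rw [this] at hdR hdG
      linear_combination hdR - β ^ 2 * hdG
    have h6 : (2 * α) ^ 2 = 1 := by
      have : G.1 1 1 = - G.1 0 0 := by linear_combination htG'
      rw [this] at htR'
      linear_combination htR'
    have h4' : (4 : F) ≠ 0 := by
      have : (4 : F) = 2 * 2 := by norm_num
      rw [this]
      exact mul_ne_zero h2 h2
    have h8 : β ^ 2 = -1 := by
      apply mul_left_cancel₀ h4'
      linear_combination 4 * h5 - h6 + h70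
    have hsq : IsSquare (-1 : F) := ⟨β, by rw [← h8]; ring⟩
    rw [FiniteField.isSquare_neg_one_iff, hq] at hsq
    exact hsq (by norm_num)
  · have htR0 : tr R = 0 := by
      have h5' : G * R = -(R * G) := by rw [hc, neg_neg]
      have h5 : G * R * G⁻¹ = -R := by
        rw [h5', neg_mul]
        simp
      have h6 := tr_conj G R
      rw [h5, tr_neg] at h6
      have h7 : 2 * tr R = 0 := by linear_combination -h6
      exact (mul_eq_zero.1 h7).resolve_left h2
    rw [htR0] at htR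
    apply one_ne_zero (α := F)
    rw [← htR]
    ring

/-- The element swapping a quaternion pair, when `2` is a square. -/
lemma exists_swap (h2 : (2 : F) ≠ 0) {ρ : F} (hρ : ρ ^ 2 = 2) {I J : SL(2, F)} (hQ : IsQ I J) :
    ∃ T : SL(2, F), T * I = J * T ∧ T * J = I * T ∧ tr T = 0 := by
  have hρ0 : ρ ≠ 0 := by
    rintro rfl
    apply h2
    rw [← hρ]
    ring
  have hdI := det_entries I
  have hdJ := det_entries J
  have htI : I.1 0 0 + I.1 1 1 = 0 := hQ.tra
  have htJ : J.1 0 0 + J.1 1 1 = 0 := hQ.trb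
  have h00 := congrArg (fun M : SL(2, F) => M.1 0 0) hQ.anti
  simp only [mul_00, neg_00] at h00
  have hdet : ((I.1 0 0 + J.1 0 0) / ρ) * ((I.1 1 1 + J.1 1 1) / ρ) -
      ((I.1 0 1 + J.1 0 1) / ρ) * ((I.1 1 0 + J.1 1 0) / ρ) = 1 := by
    field_simp
    grind
  refine ⟨sl2 _ _ _ _ hdet, ?_, ?_, ?_⟩
  · apply ext2 <;>
    · simp only [mul_00, mul_01, mul_10, mul_11, sl2_00, sl2_01, sl2_10, sl2_11]
      field_simp
      grind
  · apply ext2 <;>
    · simp only [mul_00, mul_01, mul_10, mul_11, sl2_00, sl2_01, sl2_10, sl2_11]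
      field_simp
      grind
  · simp only [tr, sl2_00, sl2_11]
    field_simp
    linear_combination htI + htJ

theorem a4_q7 (hq : Fintype.card F = 7) {H : Subgroup PSL(2, F)} (hC : Crit H) (ψ : H ≃* L4) : False := by
  have h70 := seven_eq_zero hq
  have h2 := two_ne_of_seven hq
  have hρ : (3 : F) ^ 2 = 2 := by linear_combination h70
  -- the embedding
  let emb : L4 → PSL(2, F) := fun x => (ψ.symm x).1
  have emb_mem : ∀ x, emb x ∈ H := fun x => (ψ.symm x).2
  have emb_mul : ∀ x y, emb (x * y) = emb x * emb y := fun x y => by simp [emb]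
  have emb_inv : ∀ x, emb x⁻¹ = (emb x)⁻¹ := fun x => by simp [emb]
  have emb_one : emb 1 = 1 := by simp [emb]
  have emb_inj : ∀ x y, emb x = emb y → x = y := fun x y h => ψ.symm.injective (Subtype.ext h)
  have emb_psi : ∀ (h : PSL(2, F)) (hh : h ∈ H), emb (ψ ⟨h, hh⟩) = h := fun h hh => by simp [emb]
  have emb_pow : ∀ (x : L4) (n : ℕ), emb (x ^ n) = emb x ^ n := fun x n => by simp [emb]
  -- names
  obtain ⟨I, hI⟩ := mkP_surjective (emb i₀)
  obtain ⟨J, hJ⟩ := mkP_surjective (emb j₀)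
  set i := emb i₀ with hi
  set j := emb j₀ with hj
  set r := emb r₀ with hr
  set k := emb k₀ with hk
  have hk_eq : k = i * j := by rw [hk, f_k, emb_mul]
  have hr_i : r * i = j * r := by
    have : j₀ * r₀ = r₀ * i₀ := by simp [j₀]
    rw [hr, hi, hj, ← emb_mul, ← emb_mul, this]
  have hr_j : r * j = k * r := by
    have : k₀ * r₀ = r₀ * j₀ := by simp [k₀]
    rw [hr, hk, hj, ← emb_mul, ← emb_mul, this]
  have hr_k : r * k = i * r := by
    have : r₀ * k₀ = i₀ * r₀ := by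
      rw [← f_rk]
      simp
    rw [hr, hk, hi, ← emb_mul, ← emb_mul, this]
  have hij : i * j = j * i := by
    rw [hi, hj, ← emb_mul, ← emb_mul, f_ij]
  have hPP : IsPP (mkP I) (mkP J) := by
    rw [hI, hJ]
    refine ⟨?_, ?_, ?_, ?_, ?_, hij⟩
    · intro e
      exact f_i1 (emb_inj _ _ (e.trans emb_one.symm))
    · intro e
      exact f_j1 (emb_inj _ _ (e.trans emb_one.symm))
    · intro e
      exact f_ne (emb_inj _ _ e)
    · rw [hi, ← emb_mul, f_ii, emb_one]
    · rw [hj, ← emb_mul, f_jj, emb_one]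
  have hQ : IsQ I J := isQ_of_isPP h2 hPP
  obtain ⟨T, hT1, hT2, htrT⟩ := exists_swap h2 hρ hQ
  set t : PSL(2, F) := mkP T with ht
  have ttt : t * t = 1 := mkP_sq_of_tr htrT
  have tinv : t⁻¹ = t := mkP_inv_of_tr htrT
  have t_i : t * i = j * t := by
    rw [← hI, ← hJ, ht, ← map_mul, ← map_mul, hT1]
  have t_j : t * j = i * t := by
    rw [← hI, ← hJ, ht, ← map_mul, ← map_mul, hT2]
  have t_k : t * k = k * t := by
    rw [hk_eq]
    calc t * (i * j) = (t * i) * j := by group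
      _ = j * (t * j) := by rw [t_i, mul_assoc]
      _ = j * (i * t) := by rw [t_j]
      _ = (i * j) * t := by rw [hij, mul_assoc]
  -- `t r t ∈ H`
  have hiH : i ∈ H := emb_mem _
  have hjH : j ∈ H := emb_mem _
  have hrH : r ∈ H := emb_mem _
  have hkH : k ∈ H := emb_mem _
  have h_rho_i : (t * r * t * r) * i = i * (t * r * t * r) := by
    calc (t * r * t * r) * i = t * r * t * (r * i) := by group
      _ = t * r * (t * j) * r := by rw [hr_i]; group
      _ = t * (r * i) * t * r := by rw [t_j]; group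
      _ = (t * j) * r * t * r := by rw [hr_i]; group
      _ = i * (t * r * t * r) := by rw [t_j]; group
  have h_rho_j : (t * r * t * r) * j = j * (t * r * t * r) := by
    calc (t * r * t * r) * j = t * r * t * (r * j) := by group
      _ = t * r * (t * k) * r := by rw [hr_j]; group
      _ = t * (r * k) * t * r := by rw [t_k]; group
      _ = (t * i) * r * t * r := by rw [hr_k]; group
      _ = j * (t * r * t * r) := by rw [t_i]; group
  have hrho : t * r * t * r ∈ H := by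
    obtain ⟨P', hP'⟩ := mkP_surjective (t * r * t * r)
    have h5 := comm_cases h2 hQ (G := P') (by rw [hP', hI]; exact h_rho_i) (by rw [hP', hJ]; exact h_rho_j)
    rw [hP', hI, hJ] at h5
    rcases h5 with e | e | e | e <;> rw [e]
    · exact H.one_mem
    · exact hiH
    · exact hjH
    · exact H.mul_mem hiH hjH
  have htrt : t * r * t ∈ H := by
    have := H.mul_mem hrho (H.inv_mem hrH)
    simpa using this
  have hnorm : ∀ h ∈ H, t * h * t ∈ H := by
    intro h hh
    have hS : ∀ y : PSL(2, F), y ∈ (H ⊓ cj t H) → t * y * t ∈ H := by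
      intro y hy
      have := mem_cj.1 hy.2
      rwa [tinv] at this
    apply hS
    rw [← emb_psi h hh]
    have hmem : ∀ x, emb x ∈ H ⊓ cj t H := by
      intro x
      obtain ⟨a, b, m, hx⟩ := f_dec x
      have hiS : i ∈ H ⊓ cj t H := ⟨hiH, mem_cj.2 (by
        rw [tinv, t_i, mul_assoc, ttt, mul_one]; exact hjH)⟩
      have hjS : j ∈ H ⊓ cj t H := ⟨hjH, mem_cj.2 (by
        rw [tinv, t_j, mul_assoc, ttt, mul_one]; exact hiH)⟩
      have hrS : r ∈ H ⊓ cj t H := ⟨hrH, mem_cj.2 (by rw [tinv]; exact htrt)⟩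
      rw [hx, emb_mul, emb_mul, emb_pow, emb_pow, emb_pow]
      exact (H ⊓ cj t H).mul_mem ((H ⊓ cj t H).mul_mem ((H ⊓ cj t H).pow_mem hiS _) ((H ⊓ cj t H).pow_mem hjS _))
        ((H ⊓ cj t H).pow_mem hrS _)
    exact hmem _
  have htH : t ∉ H := by
    intro h
    have h5 : ψ ⟨t, h⟩ * ψ ⟨t, h⟩ = 1 := by
      rw [← map_mul]
      have : (⟨t, h⟩ : H) * ⟨t, h⟩ = 1 := Subtype.ext ttt
      rw [this, map_one]
    apply f_no _ h5
    apply emb_inj
    rw [emb_mul, emb_mul, emb_inv, emb_psi]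
    rw [← hi, ← hj, tinv, t_i, mul_assoc, ttt, mul_one]
  obtain ⟨R, hR⟩ := mkP_surjective r
  set s₂ : PSL(2, F) := r * t * r⁻¹ with hs₂
  have hmemr₁ : t⁻¹ * s₂ ∈ H := by
    rw [tinv, hs₂]
    have := H.mul_mem htrt (H.inv_mem hrH)
    simpa [mul_assoc] using this
  obtain ⟨g, hg, hK⟩ := hC t
  have k1 := hK t (by simp [H.one_mem])
  have k2 := hK s₂ hmemr₁
  have hgH : g ∉ H := by
    intro h
    apply htH
    have := H.mul_mem h (H.inv_mem hg)
    simpa using this
  have hg2 : g * g ∈ H := by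
    have h5 := H.mul_mem (hnorm _ hg) hg
    have h6 : t * (t⁻¹ * g) * t * (t⁻¹ * g) = g * g := by
      rw [tinv, ← mul_assoc t t g, ttt, one_mul]
      calc g * t * (t * g) = g * (t * t) * g := by group
        _ = g * g := by rw [ttt, mul_one]
    rwa [h6] at h5
  obtain ⟨x₁, ha₁, hψ₁⟩ := role h2 ψ (ℓ := i₀) f_i1 f_ii htrT
  have hgg : g * g = 1 := by
    rcases f_ord (ψ ⟨_, k1 x₁ ha₁⟩) with e | e
    · exfalso
      apply hgH
      have h5 : (⟨_, k1 x₁ ha₁⟩ : H) * ⟨_, k1 x₁ ha₁⟩ * ⟨_, k1 x₁ ha₁⟩ = 1 := by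
        apply ψ.injective
        rw [map_mul, map_mul, e, map_one]
      have h6 : (x₁⁻¹ * g * x₁) * (x₁⁻¹ * g * x₁) * (x₁⁻¹ * g * x₁) = 1 := congrArg Subtype.val h5
      have h7 : g * g * g = 1 := by
        have h8 : x₁⁻¹ * (g * g * g) * x₁ = 1 := by
          rw [← h6]
          group
        have h9 : g * g * g = x₁ * (x₁⁻¹ * (g * g * g) * x₁) * x₁⁻¹ := by group
        rw [h9, h8]
        group
      have h10 := H.mul_mem hg2 hg2
      have h11 : g * g * (g * g) = g := by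
        calc g * g * (g * g) = (g * g * g) * g := by group
          _ = g := by rw [h7, one_mul]
      rwa [h11] at h10
    · have h5 : (⟨_, k1 x₁ ha₁⟩ : H) * ⟨_, k1 x₁ ha₁⟩ = 1 := by
        apply ψ.injective
        rw [map_mul, e, map_one]
      have h6 : (x₁⁻¹ * g * x₁) * (x₁⁻¹ * g * x₁) = 1 := congrArg Subtype.val h5
      have h8 : x₁⁻¹ * (g * g) * x₁ = 1 := by
        rw [← h6]
        group
      have h9 : g * g = x₁ * (x₁⁻¹ * (g * g) * x₁) * x₁⁻¹ := by group
      rw [h9, h8]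
      group
  have hcomm : ∀ A : SL(2, F), tr A = 0 → inK H (mkP A) g → g * mkP A = mkP A * g := by
    intro A hA hkA
    obtain ⟨x, ha, hψx⟩ := role h2 ψ (ℓ := i₀) f_i1 f_ii hA
    have h5 : ψ ⟨_, hkA x ha⟩ * ψ ⟨_, hkA x ha⟩ = 1 := by
      rw [← map_mul]
      have : (⟨_, hkA x ha⟩ : H) * ⟨_, hkA x ha⟩ = 1 := by
        apply Subtype.ext
        show (x⁻¹ * g * x) * (x⁻¹ * g * x) = 1
        calc (x⁻¹ * g * x) * (x⁻¹ * g * x) = x⁻¹ * (g * g) * x := by group
          _ = 1 := by rw [hgg]; group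
      rw [this, map_one]
    have h6 := f_comm (ψ ⟨_, hkA x ha⟩) (ψ ⟨_, ha⟩) h5 (by rw [hψx]; exact f_ii)
    rw [← map_mul, ← map_mul] at h6
    have h7 := congrArg Subtype.val (ψ.injective h6)
    have h8 : (x⁻¹ * g * x) * (x⁻¹ * mkP A * x) = (x⁻¹ * mkP A * x) * (x⁻¹ * g * x) := h7
    have h9 : x⁻¹ * (g * mkP A) * x = x⁻¹ * (mkP A * g) * x := by
      calc x⁻¹ * (g * mkP A) * x = (x⁻¹ * g * x) * (x⁻¹ * mkP A * x) := by group
        _ = (x⁻¹ * mkP A * x) * (x⁻¹ * g * x) := h8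
        _ = _ := by group
    exact mul_left_cancel (mul_right_cancel h9)
  have hgt : g * t = t * g := hcomm T htrT k1
  have hs₂P : s₂ = mkP (R * T * R⁻¹) := by
    rw [hs₂, map_mul, map_mul, map_inv, hR]
  have hgs : g * s₂ = s₂ * g := by
    rw [hs₂P]
    apply hcomm
    · rw [tr_conj, htrT]
    · rw [← hs₂P]
      exact k2
  -- `r₁`
  set r₁ : PSL(2, F) := t⁻¹ * s₂ with hr₁
  have hgr₁ : g * r₁ = r₁ * g := by
    have hc : Commute g s₂ := hgs
    have hc' : Commute g t⁻¹ := (show Commute g t from hgt).inv_right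
    exact hc'.mul_right hc
  have hrinv : r⁻¹ * i = k * r⁻¹ := by
    rw [inv_mul_eq_iff_eq_mul, ← mul_assoc, hr_k]
    group
  have hr₁i : r₁ * i = j * r₁ := by
    rw [hr₁, hs₂, tinv]
    calc t * (r * t * r⁻¹) * i = t * r * t * (r⁻¹ * i) := by group
      _ = t * r * (t * k) * r⁻¹ := by rw [hrinv]; group
      _ = t * (r * k) * t * r⁻¹ := by rw [t_k]; group
      _ = (t * i) * r * t * r⁻¹ := by rw [hr_k]; group
      _ = j * (t * (r * t * r⁻¹)) := by rw [t_i]; group
  have hy := f_three (ψ ⟨r₁, hmemr₁⟩) (by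
    apply emb_inj
    rw [emb_mul, emb_mul, emb_inv, emb_psi, ← hi, ← hj, mul_inv_eq_iff_eq_mul]
    exact hr₁i)
  obtain ⟨G', hG'⟩ := mkP_surjective g
  obtain ⟨R₁, hR₁⟩ := mkP_surjective r₁
  refine no_order6 hq (G := G') (R := R₁) ?_ ?_ ?_ ?_ ?_
  · rw [hG']
    rintro rfl
    exact hgH H.one_mem
  · rw [hG']
    exact hgg
  · rw [hR₁]
    have h5 : (⟨r₁, hmemr₁⟩ : H) * ⟨r₁, hmemr₁⟩ * ⟨r₁, hmemr₁⟩ = 1 := by
      apply ψ.injective
      rw [map_mul, map_mul, hy.1, map_one]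
    have h6 : r₁ * r₁ * r₁ = 1 := congrArg Subtype.val h5
    rw [pow_succ, pow_two]
    exact h6
  · rw [hR₁]
    intro e
    apply hy.2
    have : (⟨r₁, hmemr₁⟩ : H) = 1 := Subtype.ext e
    rw [this, map_one]
  · rw [hG', hR₁]
    exact hgr₁

end Cfsg.Agent.Lib.Binary.A4
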