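import Cfsg.Agent.Lib.Binary.Uni
import Cfsg.Agent.Lib.PSL2.SylowU
import Cfsg.Agent.Lib.PSL2.TraceOrder

/-!
# Binary actions of `PSL(2, F)`: the positive cases in characteristic two
-/

set_option autoImplicit false
set_option linter.style.longLine false
set_option linter.style.haveILetI false
set_option linter.unusedSectionVars false
set_option linter.unusedVariables false
set_option linter.style.multiGoal false
set_option linter.unusedSimpArgs false
set_option linter.unnecessarySeqFocus false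

namespace Cfsg.Agent.Lib.Binary.Back

open Matrix Matrix.SpecialLinearGroup Subgroup
open scoped MatrixGroups Pointwise
open Cfsg.Agent.Lib.PSL2.Basic Cfsg.Agent.Lib.PSL2.Conj
open Cfsg.Agent.Lib.PSL2.BorelMax
open Cfsg.Agent.Lib.Binary.Core Cfsg.Agent.Lib.Binary.Uni

variable {F : Type*} [Field F] [Fintype F]

/-- The coset action on `PSL(2, F) ⧸ Ubar` in terms of first columns. -/
lemma smul_mk_Ubar_iff (h2 : (2 : F) = 0) (G X Y : SL(2, F)) :
    (mkP G) • (QuotientGroup.mk (mkP X) : PSL(2, F) ⧸ Ubar F) = QuotientGroup.mk (mkP Y) ↔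
      (G * X).1 0 0 = Y.1 0 0 ∧ (G * X).1 1 0 = Y.1 1 0 := by
  rw [smul_mk_eq_mk_iff, ← map_inv, ← map_inv, ← map_mul, ← map_mul]
  set A := G * X with hA
  have h5 : X⁻¹ * G⁻¹ * Y = A⁻¹ * Y := by
    rw [hA, _root_.mul_inv_rev]
  rw [h5]
  have hdet := det_entries A
  constructor
  · rintro ⟨W, ⟨t, rfl⟩, hW⟩
    have h6 : x t = A⁻¹ * Y := mkP_injective_of_two_eq_zero h2 hW
    have h7 : Y = A * x t := by rw [h6]; group
    rw [h7]
    simp
  · rintro ⟨h0, h1⟩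
    have hdetZ := det_entries (A⁻¹ * Y)
    have e00 : (A⁻¹ * Y).1 0 0 = 1 := by
      simp only [mul_00, inv_00, inv_01]
      rw [← h0, ← h1]
      linear_combination hdet
    have e10 : (A⁻¹ * Y).1 1 0 = 0 := by
      simp only [mul_10, inv_10, inv_11]
      rw [← h0, ← h1]
      ring
    rw [e00, e10] at hdetZ
    have e11 : (A⁻¹ * Y).1 1 1 = 1 := by linear_combination hdetZ
    have h8 : A⁻¹ * Y = x ((A⁻¹ * Y).1 0 1) := by
      apply ext2 <;> simp [e00, e10, e11]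
    rw [h8]
    exact x_mem_Ubar _

lemma det_col (G X X' : SL(2, F)) :
    (G * X).1 0 0 * (G * X').1 1 0 - (G * X).1 1 0 * (G * X').1 0 0 =
      X.1 0 0 * X'.1 1 0 - X.1 1 0 * X'.1 0 0 := by
  have h := det_entries G
  simp only [mul_00, mul_10]
  linear_combination (X.1 0 0 * X'.1 1 0 - X.1 1 0 * X'.1 0 0) * h

/-- The Borel unipotent radical in characteristic two is binary. -/
theorem bin_Ubar (h2 : (2 : F) = 0) : Bin (Ubar F) := by
  intro n I J hn hp
  have key : ∀ p : PSL(2, F) ⧸ Ubar F, ∃ X : SL(2, F), p = QuotientGroup.mk (mkP X) := by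
    intro p
    obtain ⟨y, hy⟩ := QuotientGroup.mk_surjective p
    obtain ⟨X, rfl⟩ := mkP_surjective y
    exact ⟨X, hy.symm⟩
  choose X hX using fun i => key (I i)
  choose Y hY using fun i => key (J i)
  have hpair : ∀ i j, i ≠ j → ∃ G : SL(2, F), ((G * X i).1 0 0 = (Y i).1 0 0 ∧ (G * X i).1 1 0 = (Y i).1 1 0) ∧
      ((G * X j).1 0 0 = (Y j).1 0 0 ∧ (G * X j).1 1 0 = (Y j).1 1 0) := by
    intro i j hij
    obtain ⟨g, h1, h3⟩ := hp i j hij
    obtain ⟨G, rfl⟩ := mkP_surjective g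
    rw [hX i, hY i, smul_mk_Ubar_iff h2] at h1
    rw [hX j, hY j, smul_mk_Ubar_iff h2] at h3
    exact ⟨G, h1, h3⟩
  suffices hfin : ∃ G : SL(2, F), ∀ i, (G * X i).1 0 0 = (Y i).1 0 0 ∧ (G * X i).1 1 0 = (Y i).1 1 0 by
    obtain ⟨G, hG⟩ := hfin
    refine ⟨mkP G, fun i => ?_⟩
    rw [hX i, hY i, smul_mk_Ubar_iff h2]
    exact hG i
  -- determinant invariance
  have hD : ∀ i j, (X i).1 0 0 * (X j).1 1 0 - (X i).1 1 0 * (X j).1 0 0 =
      (Y i).1 0 0 * (Y j).1 1 0 - (Y i).1 1 0 * (Y j).1 0 0 := by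
    intro i j
    by_cases hij : i = j
    · subst hij
      ring
    obtain ⟨G, ⟨h1, h3⟩, ⟨h4, h5⟩⟩ := hpair i j hij
    rw [← det_col G, h1, h3, h4, h5]
  by_cases hA : ∃ a b, (X a).1 0 0 * (X b).1 1 0 - (X a).1 1 0 * (X b).1 0 0 ≠ 0
  · obtain ⟨a, b, hab⟩ := hA
    have hne : a ≠ b := by
      rintro rfl
      apply hab
      ring
    obtain ⟨G, ⟨h1, h3⟩, ⟨h4, h5⟩⟩ := hpair a b hne
    refine ⟨G, fun m => ?_⟩
    have ea : (Y a).1 0 0 * ((G * X m).1 1 0 - (Y m).1 1 0) - (Y a).1 1 0 * ((G * X m).1 0 0 - (Y m).1 0 0) = 0 := by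
      have h6 := det_col G (X a) (X m)
      rw [h1, h3] at h6
      have h7 := hD a m
      linear_combination h6 + h7
    have eb : (Y b).1 0 0 * ((G * X m).1 1 0 - (Y m).1 1 0) - (Y b).1 1 0 * ((G * X m).1 0 0 - (Y m).1 0 0) = 0 := by
      have h6 := det_col G (X b) (X m)
      rw [h4, h5] at h6
      have h7 := hD b m
      linear_combination h6 + h7
    have hdY : (Y a).1 0 0 * (Y b).1 1 0 - (Y a).1 1 0 * (Y b).1 0 0 ≠ 0 := by
      rw [← hD]
      exact hab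
    have e1 : (G * X m).1 0 0 - (Y m).1 0 0 = 0 := by
      apply mul_left_cancel₀ hdY
      linear_combination (Y b).1 0 0 * ea - (Y a).1 0 0 * eb
    have e2 : (G * X m).1 1 0 - (Y m).1 1 0 = 0 := by
      apply mul_left_cancel₀ hdY
      linear_combination (Y b).1 1 0 * ea - (Y a).1 1 0 * eb
    exact ⟨by linear_combination e1, by linear_combination e2⟩
  · push Not at hA
    let i₀ : Fin n := ⟨0, by omega⟩
    let i₁ : Fin n := ⟨1, by omega⟩
    have h01 : i₀ ≠ i₁ := by simp [i₀, i₁, Fin.ext_iff]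
    obtain ⟨G, ⟨h1, h3⟩, -⟩ := hpair i₀ i₁ h01
    refine ⟨G, fun m => ?_⟩
    by_cases hm : m = i₀
    · rw [hm]
      exact ⟨h1, h3⟩
    obtain ⟨G', ⟨h4, h5⟩, ⟨h6, h7⟩⟩ := hpair i₀ m (Ne.symm hm)
    have hdX := det_entries (X i₀)
    -- `X m = λ X i₀`
    obtain ⟨lam, hl0, hl1⟩ : ∃ lam : F, (X m).1 0 0 = lam * (X i₀).1 0 0 ∧ (X m).1 1 0 = lam * (X i₀).1 1 0 := by
      have hd0 := hA i₀ m
      by_cases h00 : (X i₀).1 0 0 = 0
      · have h10 : (X i₀).1 1 0 ≠ 0 := by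
          intro e
          rw [h00, e] at hdX
          simp at hdX
        refine ⟨(X m).1 1 0 / (X i₀).1 1 0, ?_, by field_simp⟩
        rw [h00] at hd0 ⊢
        have : (X m).1 0 0 = 0 := by
          have h8 : (X i₀).1 1 0 * (X m).1 0 0 = 0 := by linear_combination -hd0
          exact (mul_eq_zero.1 h8).resolve_left h10
        rw [this]
        ring
      · refine ⟨(X m).1 0 0 / (X i₀).1 0 0, by field_simp, ?_⟩
        field_simp
        linear_combination hd0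
    have hlin : ∀ K : SL(2, F), (K * X m).1 0 0 = lam * (K * X i₀).1 0 0 ∧ (K * X m).1 1 0 = lam * (K * X i₀).1 1 0 := by
      intro K
      simp only [mul_00, mul_10, hl0, hl1]
      constructor <;> ring
    constructor
    · rw [(hlin G).1, h1, ← h6, (hlin G').1, h4]
    · rw [(hlin G).2, h3, ← h7, (hlin G').2, h5]

/-- Order three and trace. -/
lemma tr_one_of_cube (h2 : (2 : F) = 0) {X : SL(2, F)} (h : mkP X ^ 3 = 1) (h1 : mkP X ≠ 1) : tr X = 1 := by
  have h3 := (Cfsg.Agent.Lib.PSL2.TraceOrder.tr_of_cube h).resolve_left h1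
  have h4 : (tr X - 1) ^ 2 = 0 := by linear_combination h3 - tr X * h2 + h2
  have h5 := pow_eq_zero_iff (two_ne_zero) |>.1 h4
  linear_combination h5

/-- Three elements of trace one. -/
theorem eq_of_traces (h2 : (2 : F) = 0) (hroot : ∀ ω : F, ω ^ 2 + ω + 1 ≠ 0) {A B : SL(2, F)}
    (hA : tr A = 1) (hB : tr B = 1) (hAB : tr (A * B) = 1) : A = B := by
  have hdA := det_entries A
  have hdB := det_entries B
  have hA' : A.1 0 0 + A.1 1 1 = 1 := hA
  have hB' : B.1 0 0 + B.1 1 1 = 1 := hB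
  have hAB' : (A * B).1 0 0 + (A * B).1 1 1 = 1 := hAB
  simp only [mul_00, mul_11] at hAB'
  have hentries : A.1 0 0 = B.1 0 0 ∧ A.1 0 1 = B.1 0 1 ∧ A.1 1 0 = B.1 1 0 ∧ A.1 1 1 = B.1 1 1 := by
    generalize A.1 0 0 = a at *
    generalize A.1 0 1 = b at *
    generalize A.1 1 0 = c at *
    generalize A.1 1 1 = d at *
    generalize B.1 0 0 = a' at *
    generalize B.1 0 1 = b' at *
    generalize B.1 1 0 = c' at *
    generalize B.1 1 1 = d' at *
    have hd : d = 1 - a := by linear_combination hA'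
    have hd' : d' = 1 - a' := by linear_combination hB'
    subst hd hd'
    have hb : b ≠ 0 := by
      rintro rfl
      apply hroot a
      linear_combination -hdA + h2 * a
    have hkey1 : (a + a') ^ 2 = (b + b') * (c + c') := by
      grind
    have hkey2 : a + a' = b * (c + c') + c * (b + b') := by
      grind
    have hbc : b * c = a ^ 2 + a + 1 := by
      grind
    by_cases hr : b + b' = 0
    · have hp : a + a' = 0 := by
        rw [hr, zero_mul] at hkey1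
        exact pow_eq_zero_iff (two_ne_zero) |>.1 hkey1
      have ht : c + c' = 0 := by
        rw [hp, hr, mul_zero, add_zero] at hkey2
        exact (mul_eq_zero.1 hkey2.symm).resolve_left hb
      refine ⟨?_, ?_, ?_, ?_⟩
      · linear_combination hp - a' * h2
      · linear_combination hr - b' * h2
      · linear_combination ht - c' * h2
      · linear_combination -hp + a' * h2
    · exfalso
      apply hroot (b ^ 2 * (c + c') / (b + b') + a ^ 2)
      field_simp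
      grind
  exact ext2 hentries.1 hentries.2.1 hentries.2.2.1 hentries.2.2.2

/-- All of `H` fixes `p`. -/
def Fixd (H : Subgroup PSL(2, F)) (p : PSL(2, F) ⧸ H) : Prop := ∀ h ∈ H, h • p = p

lemma fixd_of_mem {H : Subgroup PSL(2, F)} (hcard : Nat.card H = 3) {z : PSL(2, F)} (hz : z ∈ H)
    (hz1 : z ≠ 1) {p : PSL(2, F) ⧸ H} (hzp : z • p = p) : Fixd H p := by
  intro h hh
  haveI : Fact (Nat.Prime 3) := ⟨by norm_num⟩
  have h1 : (⟨z, hz⟩ : H) ≠ 1 := fun e => hz1 (congrArg Subtype.val e)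
  obtain ⟨k, hk⟩ := mem_zpowers_of_prime_card hcard (g := ⟨z, hz⟩) (g' := ⟨h, hh⟩) h1
  have h3 : z ∈ MulAction.stabilizer (PSL(2, F)) p := hzp
  have h4 : z ^ k ∈ MulAction.stabilizer (PSL(2, F)) p := Subgroup.zpow_mem _ h3 k
  have h5 : z ^ k = h := by
    have := congrArg Subtype.val hk
    simpa using this
  rw [h5] at h4
  exact h4

lemma cube_of_fix {H : Subgroup PSL(2, F)} (hcard : Nat.card H = 3) {s : PSL(2, F)}
    {p : PSL(2, F) ⧸ H} (hs : s • p = p) : s ^ 3 = 1 := by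
  obtain ⟨y, rfl⟩ := QuotientGroup.mk_surjective p
  have h1 := (fix_iff H s y).1 hs
  have h3 : (⟨y⁻¹ * s * y, h1⟩ : H) ^ 3 = 1 := by
    rw [← hcard]
    exact pow_card_eq_one'
  have h4 : (y⁻¹ * s * y) ^ 3 = 1 := congrArg Subtype.val h3
  have h5 : y⁻¹ * s ^ 3 * y = 1 := by
    rw [← h4]
    simp only [pow_succ, pow_zero, one_mul]
    group
  have h6 : s ^ 3 = y * (y⁻¹ * s ^ 3 * y) * y⁻¹ := by group
  rw [h6, h5]
  group

lemma no_two (h2 : (2 : F) = 0) (hroot : ∀ ω : F, ω ^ 2 + ω + 1 ≠ 0) {H : Subgroup PSL(2, F)}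
    (hcard : Nat.card H = 3) {h₁ h₂ t : PSL(2, F)} {p₁ p₂ : PSL(2, F) ⧸ H} (hh₁ : h₁ ∈ H) (hh₂ : h₂ ∈ H)
    (hne : h₁ ≠ h₂) (h1 : t • p₁ = h₁ • p₁) (h3 : t • p₂ = h₂ • p₂) (hnf₁ : ¬ Fixd H p₁)
    (hnf₂ : ¬ Fixd H p₂) : False := by
  have hs₁ : (h₁⁻¹ * t) • p₁ = p₁ := by
    rw [mul_smul, h1, smul_smul]
    simp
  have hs₂ : (h₂⁻¹ * t) • p₂ = p₂ := by
    rw [mul_smul, h3, smul_smul]
    simp
  have hc₁ := cube_of_fix hcard hs₁
  have hc₂ := cube_of_fix hcard hs₂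
  set z := h₁⁻¹ * h₂ with hz
  have hzH : z ∈ H := H.mul_mem (H.inv_mem hh₁) hh₂
  have hz1 : z ≠ 1 := by
    intro e
    apply hne
    rw [hz, inv_mul_eq_one] at e
    exact e
  have hcz : z ^ 3 = 1 := by
    have h5 : (⟨z, hzH⟩ : H) ^ 3 = 1 := by
      rw [← hcard]
      exact pow_card_eq_one'
    exact congrArg Subtype.val h5
  have hzs : (h₁⁻¹ * t) * (h₂⁻¹ * t)⁻¹ = z := by
    rw [hz]
    group
  by_cases e₁ : h₁⁻¹ * t = 1
  · apply hnf₂
    have ht : t = h₁ := by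
      rw [inv_mul_eq_one] at e₁
      exact e₁.symm
    refine fixd_of_mem hcard (z := h₂⁻¹ * t) ?_ ?_ hs₂
    · rw [ht]
      exact H.mul_mem (H.inv_mem hh₂) hh₁
    · rw [ht]
      intro e
      apply hne
      rw [inv_mul_eq_one] at e
      exact e.symm
  by_cases e₂ : h₂⁻¹ * t = 1
  · apply hnf₁
    have ht : t = h₂ := by
      rw [inv_mul_eq_one] at e₂
      exact e₂.symm
    refine fixd_of_mem hcard (z := h₁⁻¹ * t) ?_ ?_ hs₁
    · rw [ht]
      exact hzH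
    · rw [ht]
      exact hz1
  obtain ⟨S₁, hS₁⟩ := mkP_surjective (h₁⁻¹ * t)
  obtain ⟨S₂, hS₂⟩ := mkP_surjective (h₂⁻¹ * t)
  have hA : tr S₁ = 1 := tr_one_of_cube h2 (by rw [hS₁]; exact hc₁) (by rw [hS₁]; exact e₁)
  have hB : tr S₂⁻¹ = 1 := by
    apply tr_one_of_cube h2
    · rw [map_inv, hS₂, inv_pow, hc₂, inv_one]
    · rw [map_inv, hS₂]
      exact inv_ne_one.2 e₂
  have hAB : tr (S₁ * S₂⁻¹) = 1 := by
    have h5 : mkP (S₁ * S₂⁻¹) = z := by
      rw [map_mul, map_inv, hS₁, hS₂, hzs]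
    apply tr_one_of_cube h2
    · rw [h5]; exact hcz
    · rw [h5]; exact hz1
  have hEq := eq_of_traces h2 hroot hA hB hAB
  have hss : (h₁⁻¹ * t) = (h₂⁻¹ * t)⁻¹ := by
    calc h₁⁻¹ * t = mkP S₁ := hS₁.symm
      _ = mkP S₂⁻¹ := by rw [hEq]
      _ = (mkP S₂)⁻¹ := map_inv _ _
      _ = _ := by rw [hS₂]
  have hsq : (h₁⁻¹ * t) * (h₁⁻¹ * t) = z := by
    nth_rw 2 [hss]
    exact hzs
  have hmem : h₁⁻¹ * t ∈ H := by
    have h5 := H.mul_mem hzH hzH
    have h6 : z * z = h₁⁻¹ * t := by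
      rw [← hsq]
      have h7 : (h₁⁻¹ * t) ^ 3 = 1 := hc₁
      calc (h₁⁻¹ * t) * (h₁⁻¹ * t) * ((h₁⁻¹ * t) * (h₁⁻¹ * t)) = (h₁⁻¹ * t) ^ 3 * (h₁⁻¹ * t) := by
            simp only [pow_succ, pow_zero, one_mul, mul_assoc]
        _ = h₁⁻¹ * t := by rw [h7, one_mul]
    rwa [h6] at h5
  exact hnf₁ (fixd_of_mem hcard hmem e₁ hs₁)

/-- A subgroup of order three, with no cube root of unity in the field, is binary. -/
theorem bin_three (h2 : (2 : F) = 0) (hroot : ∀ ω : F, ω ^ 2 + ω + 1 ≠ 0) {H : Subgroup PSL(2, F)}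
    (hcard : Nat.card H = 3) : Bin H := by
  intro n I J hn hp
  have h0 : 0 < n := by omega
  let i₀ : Fin n := ⟨0, h0⟩
  let i₁ : Fin n := ⟨1, by omega⟩
  have h01 : i₀ ≠ i₁ := by simp [i₀, i₁, Fin.ext_iff]
  obtain ⟨g₀, hg₀, -⟩ := hp i₀ i₁ h01
  obtain ⟨x₀, hx₀⟩ := QuotientGroup.mk_surjective (I i₀)
  let ω : PSL(2, F) ⧸ H := QuotientGroup.mk 1
  let I' : Fin n → PSL(2, F) ⧸ H := fun i => x₀⁻¹ • I i
  let J' : Fin n → PSL(2, F) ⧸ H := fun i => (x₀⁻¹ * g₀⁻¹) • J i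
  have hI0 : I' i₀ = ω := by
    simp only [I', ω, ← hx₀, MulAction.Quotient.smul_mk, smul_eq_mul, inv_mul_cancel]
  have hJ0 : J' i₀ = ω := by
    simp only [J', ← hg₀, smul_smul, ← hx₀, MulAction.Quotient.smul_mk, smul_eq_mul, ω]
    congr 1
    group
  have hpair' : ∀ i j, i ≠ j → ∃ g : PSL(2, F), g • I' i = J' i ∧ g • I' j = J' j := by
    intro i j hij
    obtain ⟨g, h1, h3⟩ := hp i j hij
    refine ⟨x₀⁻¹ * g₀⁻¹ * g * x₀, ?_, ?_⟩
    · simp only [I', J', smul_smul, ← h1]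
      congr 1
      group
    · simp only [I', J', smul_smul, ← h3]
      congr 1
      group
  have hωmem : ∀ g : PSL(2, F), g • ω = ω → g ∈ H := by
    intro g hg
    have := (fix_iff H g 1).1 hg
    simpa using this
  have hωfix : ∀ g ∈ H, g • ω = ω := by
    intro g hg
    apply (fix_iff H g 1).2
    simpa using hg
  suffices hfin : ∃ h : PSL(2, F), ∀ i, h • I' i = J' i by
    obtain ⟨h, hh⟩ := hfin
    refine ⟨g₀ * x₀ * h * x₀⁻¹, fun i => ?_⟩
    have h5 := hh i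
    simp only [I', J'] at h5
    calc (g₀ * x₀ * h * x₀⁻¹) • I i = (g₀ * x₀) • (h • (x₀⁻¹ • I i)) := by
          simp only [smul_smul]
          congr 1
          group
      _ = (g₀ * x₀) • ((x₀⁻¹ * g₀⁻¹) • J i) := by rw [h5]
      _ = J i := by
          rw [smul_smul]
          simp
  have hone : ∀ i, i ≠ i₀ → ∃ h ∈ H, h • I' i = J' i := by
    intro i hi
    obtain ⟨h, h1, h3⟩ := hpair' i₀ i (Ne.symm hi)
    refine ⟨h, ?_, h3⟩
    rw [hI0, hJ0] at h1
    exact hωmem h h1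
  by_cases hex : ∃ i₂, ¬ Fixd H (I' i₂)
  · obtain ⟨i₂, hi₂⟩ := hex
    have hi₂0 : i₂ ≠ i₀ := by
      rintro rfl
      apply hi₂
      rw [hI0]
      exact hωfix
    obtain ⟨h, hhH, hh⟩ := hone i₂ hi₂0
    refine ⟨h, fun i => ?_⟩
    by_cases h1 : i = i₀
    · rw [h1, hI0, hJ0]
      exact hωfix h hhH
    by_cases h3 : i = i₂
    · rw [h3]
      exact hh
    obtain ⟨h', hh'H, hh'⟩ := hone i h1
    by_cases hfix : Fixd H (I' i)
    · rw [hfix h hhH, ← hh', hfix h' hh'H]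
    by_cases heq : h' = h
    · rw [← heq]
      exact hh'
    exfalso
    obtain ⟨t, ht₁, ht₂⟩ := hpair' i i₂ h3
    exact no_two h2 hroot hcard hh'H hhH heq (ht₁.trans hh'.symm) (ht₂.trans hh.symm) hfix hi₂
  · push Not at hex
    refine ⟨1, fun i => ?_⟩
    rw [one_smul]
    by_cases h1 : i = i₀
    · rw [h1, hI0, hJ0]
    obtain ⟨h', hh'H, hh'⟩ := hone i h1
    rw [← hh', hex i h' hh'H]

lemma card_Ubar (h2 : (2 : F) = 0) : Nat.card (Ubar F) = Nat.card (Cfsg.Agent.Lib.PSL2.SylowU.U F) :=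
  Nat.card_congr (Subgroup.equivMapOfInjective _ _ (mkP_injective_of_two_eq_zero h2)).toEquiv.symm

lemma ubar_card_sylow (h2 : (2 : F) = 0) :
    haveI : Fact (Nat.Prime 2) := ⟨Nat.prime_two⟩
    Nat.card (Ubar F) = 2 ^ (Nat.card PSL(2, F)).factorization 2 := by
  haveI : Fact (Nat.Prime 2) := ⟨Nat.prime_two⟩
  haveI : CharP F 2 := CharTwo.of_one_ne_zero_of_two_eq_zero one_ne_zero h2
  rw [card_Ubar h2, Cfsg.Agent.Lib.PSL2.SylowU.card_U_eq_pow_factorization 2,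
    Nat.card_congr (pslEquivSL h2).toEquiv]

theorem bin_sylow (h2 : (2 : F) = 0) (P : Sylow 2 PSL(2, F)) : Bin (P : Subgroup PSL(2, F)) := by
  haveI : Fact (Nat.Prime 2) := ⟨Nat.prime_two⟩
  let P₀ : Sylow 2 PSL(2, F) := Sylow.ofCard (Ubar F) (ubar_card_sylow h2)
  obtain ⟨y, hy⟩ := MulAction.exists_smul_eq PSL(2, F) P₀ P
  have h1 : (P : Subgroup PSL(2, F)) = cj y (Ubar F) := by
    rw [← hy]
    ext z
    change z ∈ (MulAut.conj y • (Ubar F)) ↔ _
    rw [Subgroup.mem_smul_pointwise_iff_exists]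
    constructor
    · rintro ⟨s, hs, rfl⟩
      exact ⟨s, hs, rfl⟩
    · rintro ⟨s, hs, rfl⟩
      exact ⟨s, hs, rfl⟩
  rw [h1]
  exact (bin_Ubar h2).conj y

theorem sylow_of_card (h2 : (2 : F) = 0) {H : Subgroup PSL(2, F)} (h : Nat.card H = Nat.card (Ubar F)) :
    ∃ P : Sylow 2 PSL(2, F), H = P := by
  haveI : Fact (Nat.Prime 2) := ⟨Nat.prime_two⟩
  refine ⟨Sylow.ofCard H (h.trans (ubar_card_sylow h2)), ?_⟩
  simp

/-- `x² + x + 1` has no root over `F₂ᵃ`, `a` odd. -/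
lemma no_root_of_odd {a : ℕ} (ha : Odd a) (hq : Fintype.card F = 2 ^ a) (h2 : (2 : F) = 0) (ω : F) :
    ω ^ 2 + ω + 1 ≠ 0 := by
  intro h
  have hω0 : ω ≠ 0 := by
    rintro rfl
    simp at h
  have h3 : ω ^ 3 = 1 := by linear_combination (ω - 1) * h
  have h1 : ω ≠ 1 := by
    rintro rfl
    apply one_ne_zero (α := F)
    linear_combination h - h2
  haveI : Fact (Nat.Prime 3) := ⟨by norm_num⟩
  have ho : orderOf ω = 3 := orderOf_eq_prime h3 h1
  have h5 := FiniteField.pow_card_sub_one_eq_one ω hω0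
  have h6 := orderOf_dvd_of_pow_eq_one h5
  rw [ho, hq] at h6
  obtain ⟨m, rfl⟩ := ha
  have h7 : 2 ^ (2 * m + 1) % 3 = 2 := by
    rw [pow_succ, pow_mul, Nat.mul_mod, Nat.pow_mod]
    norm_num
  have h8 : 0 < 2 ^ (2 * m + 1) := by positivity
  generalize 2 ^ (2 * m + 1) = N at h6 h7 h8
  omega

/-- `x² + x + 1` has a root over `F₂ᵃ`, `a` even. -/
lemma exists_root_of_even {a : ℕ} (ha : Even a) (hq : Fintype.card F = 2 ^ a) (h0 : 4 ≤ Fintype.card F) :
    ∃ ω : F, ω ^ 2 + ω + 1 = 0 := by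
  classical
  obtain ⟨m, rfl⟩ := ha
  haveI : Fact (Nat.Prime 3) := ⟨by norm_num⟩
  have h3 : 3 ∣ Nat.card Fˣ := by
    rw [Nat.card_eq_fintype_card, Fintype.card_units, hq]
    have h7 : 2 ^ (m + m) % 3 = 1 := by
      rw [← two_mul, pow_mul, Nat.pow_mod]
      norm_num
    have h8 : 0 < 2 ^ (m + m) := by positivity
    generalize 2 ^ (m + m) = N at h7 h8 ⊢
    omega
  obtain ⟨u, hu⟩ := exists_prime_orderOf_dvd_card' 3 h3
  have h4 : (u : F) ^ 3 = 1 := by
    have := pow_orderOf_eq_one u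
    rw [hu] at this
    have h9 := congrArg Units.val this
    simpa using h9
  have h5 : (u : F) ≠ 1 := by
    intro e
    have : u = 1 := Units.ext e
    rw [this, orderOf_one] at hu
    omega
  refine ⟨u, ?_⟩
  have h6 : ((u : F) - 1) * ((u : F) ^ 2 + u + 1) = 0 := by linear_combination h4
  exact (mul_eq_zero.1 h6).resolve_left (sub_ne_zero.2 h5)

end Cfsg.Agent.Lib.Binary.Back
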