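import Cfsg.Agent.Lib.Binary.Uni
import Cfsg.Agent.Lib.PSL2.FourGroup

/-!
# Binary actions of `PSL(2, F)`: cyclic stabilisers
-/

set_option autoImplicit false
set_option linter.style.longLine false
set_option linter.style.haveILetI false
set_option linter.unusedSectionVars false
set_option linter.unusedVariables false
set_option linter.style.multiGoal false
set_option linter.unusedSimpArgs false
set_option linter.unnecessarySeqFocus false

namespace Cfsg.Agent.Lib.Binary.Cyc

open Matrix Matrix.SpecialLinearGroup Subgroup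
open scoped MatrixGroups
open Cfsg.Agent.Lib.PSL2.Basic Cfsg.Agent.Lib.PSL2.Conj Cfsg.Agent.Lib.PSL2.Members
open Cfsg.Agent.Lib.PSL2.BorelMax Cfsg.Agent.Lib.PSL2.Unipotent
open Cfsg.Agent.Lib.PSL2.FourGroup
open Cfsg.Agent.Lib.PSL2.Macbeath (exists_conj_of_tr_eq exists_tr_mul exists_conic)
open Cfsg.Agent.Lib.Binary.Core Cfsg.Agent.Lib.Binary.Uni

variable {F : Type*} [Field F] [Fintype F]

/-- Two involutions of a cyclic group coincide. -/
lemma eq_of_involutions {C : Type*} [Group C] [Finite C] [IsCyclic C] {a b : C} (ha : a ≠ 1) (hb : b ≠ 1)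
    (haa : a * a = 1) (hbb : b * b = 1) : a = b := by
  classical
  haveI := Fintype.ofFinite C
  by_contra hab
  have h1 := IsCyclic.card_pow_eq_one_le (α := C) (n := 2) (by norm_num)
  have h2 : ({1, a, b} : Finset C) ⊆ Finset.univ.filter (fun y : C => y ^ 2 = 1) := by
    intro y hy
    simp only [Finset.mem_insert, Finset.mem_singleton] at hy
    simp only [Finset.mem_filter, Finset.mem_univ, true_and]
    rcases hy with rfl | rfl | rfl
    · simp
    · rw [sq]; exact haa
    · rw [sq]; exact hbb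
  have h3 := Finset.card_le_card h2
  have h4 : ({1, a, b} : Finset C).card = 3 := by
    rw [Finset.card_insert_of_notMem, Finset.card_insert_of_notMem, Finset.card_singleton]
    · simpa using hab
    · simp only [Finset.mem_insert, Finset.mem_singleton, not_or]
      exact ⟨ha.symm, hb.symm⟩
  omega

/-- Exact commutation in cyclic subgroups. -/
theorem cyc_comm {H : Subgroup PSL(2, F)} [IsCyclic H] {A B : SL(2, F)} (hA : mkP A ∈ H)
    (hB : mkP B ∈ H) : A * B = B * A := by
  have hcomm : mkP A * mkP B = mkP B * mkP A := by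
    have := (IsCyclic.commGroup (α := H)).mul_comm (⟨mkP A, hA⟩ : H) ⟨mkP B, hB⟩
    exact congrArg Subtype.val this
  rw [← map_mul, ← map_mul, mkP_eq_iff] at hcomm
  rcases hcomm with h | h
  · exact h.symm
  · by_cases h2 : (2 : F) = 0
    · rw [h, neg_eq_self_of_two_eq_zero h2]
    exfalso
    have hh2 : ∀ a : F, a = -a → a = 0 := by
      intro a ha
      have : 2 * a = 0 := by linear_combination ha
      exact (mul_eq_zero.1 this).resolve_left h2
    have htrA : tr A = 0 := by
      apply hh2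
      have h3 : B * A * B⁻¹ = -A := by
        rw [h, neg_mul]
        simp
      have h4 := tr_conj B A
      rw [h3, tr_neg] at h4
      exact h4.symm
    have htrB : tr B = 0 := by
      apply hh2
      have h3 : A * B * A⁻¹ = -B := by
        have h5 : A * B = -(B * A) := by rw [h, neg_neg]
        rw [h5, neg_mul]
        simp
      have h4 := tr_conj A B
      rw [h3, tr_neg] at h4
      exact h4.symm
    have hQ : IsQ A B := ⟨htrA, htrB, by rw [h, neg_neg]⟩
    have hP := isPP_of_isQ h2 hQ
    have h5 : (⟨mkP A, hA⟩ : H) = ⟨mkP B, hB⟩ := by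
      apply eq_of_involutions
      · intro e
        exact hP.a1 (congrArg Subtype.val e)
      · intro e
        exact hP.b1 (congrArg Subtype.val e)
      · exact Subtype.ext hP.aa
      · exact Subtype.ext hP.bb
    exact hP.ab (congrArg Subtype.val h5)

theorem kex_cyc {H : Subgroup PSL(2, F)} [IsCyclic H] {S : SL(2, F)}
    (hconj : ∃ x₀ : PSL(2, F), x₀⁻¹ * mkP S * x₀ ∈ H) : KEx H S := by
  intro g hg
  obtain ⟨x₀, hx₀⟩ := hconj
  obtain ⟨X, rfl⟩ := mkP_surjective x₀
  obtain ⟨Z, rfl⟩ := mkP_surjective g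
  have h1 := hg (mkP X) hx₀
  refine ⟨Z, rfl, ?_⟩
  rw [← map_inv, ← map_mul, ← map_mul] at h1 hx₀
  have h3 := cyc_comm h1 hx₀
  calc Z * S = X * ((X⁻¹ * Z * X) * (X⁻¹ * S * X)) * X⁻¹ := by group
    _ = X * ((X⁻¹ * S * X) * (X⁻¹ * Z * X)) * X⁻¹ := by rw [h3]
    _ = S * Z := by group

/-- The core argument for cyclic stabilisers. -/
theorem cyc_core {H : Subgroup PSL(2, F)} [IsCyclic H] (hC : Crit H) {A V : SL(2, F)}
    (hA : mkP A ∈ H) (hτ : tr A ^ 2 ≠ 4) (hV1 : tr V = tr A)
    (hV2 : tr (A * V) = tr A ∨ tr (A * V) = -tr A) (hnc : A * V ≠ V * A) : False := by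
  have hK : ∀ S : SL(2, F), tr S = tr A → KEx H S := by
    intro S hS
    obtain ⟨g, hg⟩ := exists_conj_of_tr_eq A S hτ hS.symm
    apply kex_cyc
    refine ⟨mkP g, ?_⟩
    rw [← hg]
    have h3 : (mkP g)⁻¹ * mkP (g * A * g⁻¹) * mkP g = mkP A := by
      simp only [map_mul, map_inv]
      group
    rw [h3]
    exact hA
  have hV : mkP V ∉ H := fun h => hnc (cyc_comm hA h)
  rcases hV2 with h2 | h2
  · refine pair_contra hC (S₁ := V) (S₂ := V * A) (hK _ hV1) (hK _ (by rw [tr_mul_comm, h2])) ?_ ?_ hV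
    · simpa using hA
    · intro h
      apply hnc
      have h3 : V * (V * A) = V * (A * V) := by
        rw [h]
        group
      exact (mul_left_cancel h3).symm
  · refine pair_contra hC (S₁ := V) (S₂ := -(V * A)) (hK _ hV1) (hK _ (by rw [tr_neg, tr_mul_comm, h2, neg_neg])) ?_ ?_ hV
    · have h3 : V⁻¹ * -(V * A) = -A := by
        rw [mul_neg]
        simp
      rw [h3, mkP_neg]
      exact hA
    · intro h
      apply hnc
      rw [mul_neg, neg_mul] at h
      have h3 : V * (V * A) = V * (A * V) := by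
        have := neg_injective h
        rw [this]
        group
      exact (mul_left_cancel h3).symm

lemma nc_of_tr {V : SL(2, F)} (hτ : tr V ^ 2 ≠ 4) : NC V := by
  constructor
  · rintro rfl
    apply hτ
    rw [tr_one]
    norm_num
  · rintro rfl
    apply hτ
    rw [tr_neg, tr_one]
    norm_num

/-- Cyclic stabilisers with the generic trace. -/
theorem cyc_main {H : Subgroup PSL(2, F)} [IsCyclic H] (hC : Crit H) {A : SL(2, F)}
    (hA : mkP A ∈ H) (hτ : tr A ^ 2 ≠ 4) (hex : tr A ≠ -1 ∨ (2 : F) ≠ 0) : False := by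
  have hNC : NC A := nc_of_tr hτ
  have hd : disc A ≠ 0 := by
    unfold disc
    intro h
    exact hτ (by linear_combination h)
  have h2τ : tr A ≠ 2 := by
    intro h
    apply hτ
    rw [h]
    norm_num
  by_cases hm : tr A = -1
  · have h2 : (2 : F) ≠ 0 := hex.resolve_left (fun h => h hm)
    obtain ⟨V, hV1, hV2⟩ := exists_tr_mul hNC (tr A) (-tr A) (exists_conic _ _ _ hτ)
    refine cyc_core hC hA hτ hV1 (Or.inr hV2) ?_
    intro hcomm
    have hVNC : NC V := by
      apply nc_of_tr
      rwa [hV1]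
    rcases eq_or_eq_inv_of_commute hNC hd hV1 hVNC hcomm with e | e
    · rw [e, Cfsg.Agent.Lib.PSL2.Torus.tr_mul_self, hm] at hV2
      apply h2
      linear_combination -hV2
    · rw [e] at hV2
      simp only [mul_inv_cancel, tr_one, hm, neg_neg] at hV2
      have h3 : (1 : F) = 0 := by linear_combination hV2
      exact one_ne_zero h3
  · obtain ⟨V, hV1, hV2⟩ := exists_tr_mul hNC (tr A) (tr A) (exists_conic _ _ _ hτ)
    refine cyc_core hC hA hτ hV1 (Or.inl hV2) ?_
    intro hcomm
    have hVNC : NC V := by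
      apply nc_of_tr
      rwa [hV1]
    rcases eq_or_eq_inv_of_commute hNC hd hV1 hVNC hcomm with e | e
    · rw [e, Cfsg.Agent.Lib.PSL2.Torus.tr_mul_self] at hV2
      have h3 : (tr A - 2) * (tr A + 1) = 0 := by linear_combination hV2
      rcases mul_eq_zero.1 h3 with h4 | h4
      · exact h2τ (by linear_combination h4)
      · exact hm (by linear_combination h4)
    · rw [e] at hV2
      simp only [mul_inv_cancel, tr_one] at hV2
      exact h2τ hV2.symm

/-- Characteristic two, trace one, split: still not binary. -/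
theorem cyc_even3 {H : Subgroup PSL(2, F)} [IsCyclic H] (hC : Crit H) (h2 : (2 : F) = 0) {A : SL(2, F)}
    (hA : mkP A ∈ H) (htr : tr A = 1) {ω : F} (hω : ω ^ 2 + ω + 1 = 0) : False := by
  have hω0 : ω ≠ 0 := by
    rintro rfl
    simp at hω
  have hinv : ω⁻¹ = ω ^ 2 := by
    have h3 : ω ^ 3 = 1 := by linear_combination (ω - 1) * hω
    field_simp
    linear_combination -h3
  have hneg : ∀ a : F, -a = a := fun a => by linear_combination (-a) * h2
  have htrd : tr (d ω hω0) = tr A := by
    rw [tr_d, htr, hinv]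
    linear_combination hω - h2
  have hτ : tr A ^ 2 ≠ 4 := by
    rw [htr]
    have : (4 : F) = 0 := by linear_combination 2 * h2
    rw [this]
    simp
  obtain ⟨g, hg⟩ := exists_conj_of_tr_eq (d ω hω0) A (by rwa [htrd]) htrd
  let S : SL(2, F) := sl2 ω 1 0 ω⁻¹ (by field_simp; ring)
  refine cyc_core hC hA hτ (V := g * S * g⁻¹) ?_ (Or.inl ?_) ?_
  · rw [tr_conj, htr]
    simp only [tr, S, sl2_00, sl2_11, hinv]
    linear_combination hω - h2
  · rw [← hg]
    have h3 : g * d ω hω0 * g⁻¹ * (g * S * g⁻¹) = g * (d ω hω0 * S) * g⁻¹ := by group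
    rw [h3, tr_conj, tr_conj, tr_d]
    simp only [tr, S, mul_00, mul_11, d_00, d_01, d_10, d_11, sl2_00, sl2_01, sl2_10, sl2_11, hinv]
    linear_combination ω * (ω - 1) * hω
  · rw [← hg]
    intro h
    have h3 : g * (d ω hω0 * S) * g⁻¹ = g * (S * d ω hω0) * g⁻¹ := by
      calc g * (d ω hω0 * S) * g⁻¹ = g * d ω hω0 * g⁻¹ * (g * S * g⁻¹) := by group
        _ = g * S * g⁻¹ * (g * d ω hω0 * g⁻¹) := h
        _ = _ := by group
    have h4 := mul_left_cancel (mul_right_cancel h3)
    have h5 := congrArg (fun M : SL(2, F) => M.1 0 1) h4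
    simp only [mul_01, d_00, d_01, d_10, d_11, S, sl2_00, sl2_01, sl2_10, sl2_11, hinv] at h5
    have h6 : (1 : F) = 0 := by
      linear_combination hω + h5 - ω * h2
    exact one_ne_zero h6

/-- Order three in `SL(2, F)`. -/
lemma pow_three_of_tr {A : SL(2, F)} (htr : tr A = -1) : A * A * A = 1 := by
  have hdet := det_entries A
  have ht : A.1 0 0 + A.1 1 1 = -1 := htr
  apply ext2
  · simp only [mul_00, mul_01, mul_10, mul_11, one_00]
    linear_combination (-(2 * A.1 0 0 + A.1 1 1)) * hdet + (A.1 0 0 * (A.1 0 0 + A.1 1 1 + 1) - 2 * A.1 0 0 - 1) * ht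
  · simp only [mul_00, mul_01, mul_10, mul_11, one_01]
    grind
  · simp only [mul_00, mul_01, mul_10, mul_11, one_10]
    grind
  · simp only [mul_00, mul_01, mul_10, mul_11, one_11]
    grind

end Cfsg.Agent.Lib.Binary.Cyc
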