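import Cfsg.Agent.Lib.Binary.Cyc
import Cfsg.Agent.Lib.PSL2.DihedralMax

/-!
# Binary actions of `PSL(2, F)`: the involution triple
-/

set_option autoImplicit false
set_option linter.style.longLine false
set_option linter.style.haveILetI false
set_option linter.unusedSectionVars false
set_option linter.unusedVariables false
set_option linter.style.multiGoal false
set_option linter.unusedSimpArgs false
set_option linter.unnecessarySeqFocus false

namespace Cfsg.Agent.Lib.Binary.Inv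

open Matrix Matrix.SpecialLinearGroup Subgroup
open scoped MatrixGroups
open Cfsg.Agent.Lib.PSL2.Basic Cfsg.Agent.Lib.PSL2.Conj Cfsg.Agent.Lib.PSL2.Members
open Cfsg.Agent.Lib.PSL2.BorelMax Cfsg.Agent.Lib.PSL2.Unipotent
open Cfsg.Agent.Lib.PSL2.FourGroup
open Cfsg.Agent.Lib.PSL2.KleinPairs
open Cfsg.Agent.Lib.PSL2.Torus (mul_self_eq_neg_one_iff)
open Cfsg.Agent.Lib.PSL2.TraceZero (exists_conj_of_tr_eq_zero)
open Cfsg.Agent.Lib.PSL2.DihedralMax (Nz Num isCoatom_Nz cbar_le_Nz)
open Cfsg.Agent.Lib.PSL2.DicksonCor (dd)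
open Cfsg.Agent.Lib.Binary.Core Cfsg.Agent.Lib.Binary.Uni Cfsg.Agent.Lib.Binary.Cyc

variable {F : Type*} [Field F]

/-- The element of order three cycling a quaternion pair. -/
theorem exists_cycle (h2 : (2 : F) ≠ 0) {A C : SL(2, F)} (hQ : IsQ C A) :
    ∃ Q : SL(2, F), Q * C = A * Q ∧ Q * A = (C * A) * Q := by
  have hdc := det_entries C
  have hda := det_entries A
  have htc : C.1 0 0 + C.1 1 1 = 0 := hQ.tra
  have hta : A.1 0 0 + A.1 1 1 = 0 := hQ.trb
  have h00 := congrArg (fun M : SL(2, F) => M.1 0 0) hQ.anti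
  simp only [mul_00, neg_00] at h00
  generalize hp : C.1 0 0 = p at *
  generalize hr : C.1 0 1 = r at *
  generalize hs : C.1 1 0 = s at *
  generalize hp' : C.1 1 1 = p' at *
  generalize ht : A.1 0 0 = t at *
  generalize hu : A.1 0 1 = u at *
  generalize hv : A.1 1 0 = v at *
  generalize ht' : A.1 1 1 = t' at *
  have e1 : p' = -p := by linear_combination htc
  have e2 : t' = -t := by linear_combination hta
  subst e1 e2
  have hdet : ((1 + p + t + (p * t + r * v)) / 2) * ((1 + (-p) + (-t) + (s * u + (-p) * (-t))) / 2) -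
      ((r + u + (p * u + r * (-t))) / 2) * ((s + v + (s * t + (-p) * v)) / 2) = 1 := by
    field_simp
    grind
  refine ⟨sl2 _ _ _ _ hdet, ?_, ?_⟩
  · apply ext2 <;>
    · simp only [mul_00, mul_01, mul_10, mul_11, sl2_00, sl2_01, sl2_10, sl2_11, hp, hr, hs, hp', ht, hu, hv, ht']
      field_simp
      grind
  · apply ext2 <;>
    · simp only [mul_00, mul_01, mul_10, mul_11, sl2_00, sl2_01, sl2_10, sl2_11, hp, hr, hs, hp', ht, hu, hv, ht']
      field_simp
      grind

lemma inv_eq_neg_of_tr {A : SL(2, F)} (h : tr A = 0) : A⁻¹ = -A := by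
  have h3 : A * (-A) = 1 := by
    rw [mul_neg, (mul_self_eq_neg_one_iff A).2 h, neg_neg]
  exact (eq_inv_of_mul_eq_one_right h3).symm

lemma mkP_inv_of_tr {A : SL(2, F)} (h : tr A = 0) : (mkP A)⁻¹ = mkP A := by
  rw [← map_inv, inv_eq_neg_of_tr h, mkP_neg]

lemma mkP_sq_of_tr {A : SL(2, F)} (h : tr A = 0) : mkP A * mkP A = 1 := by
  rw [← map_mul, (mul_self_eq_neg_one_iff A).2 h, mkP_neg_one]

lemma tr_inv (A : SL(2, F)) : tr A⁻¹ = tr A := by
  simp [tr, add_comm]

lemma nc_of_tr_zero (h2 : (2 : F) ≠ 0) {A : SL(2, F)} (h : tr A = 0) : NC A := by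
  constructor
  · rintro rfl
    rw [tr_one] at h
    exact h2 h
  · rintro rfl
    rw [tr_neg, tr_one, neg_eq_zero] at h
    exact h2 h

lemma disc_of_tr_zero (h2 : (2 : F) ≠ 0) {A : SL(2, F)} (h : tr A = 0) : disc A ≠ 0 := by
  unfold disc
  rw [h]
  intro h0
  apply h2
  have : (2 : F) * 2 = 0 := by linear_combination -h0
  exact mul_self_eq_zero.1 this

lemma mkP_ne_one_of_tr (h2 : (2 : F) ≠ 0) {A : SL(2, F)} (h : tr A = 0) : mkP A ≠ 1 :=
  mkP_ne_one (nc_of_tr_zero h2 h)

/-- An involution of `PSL(2, F)` has lifts of trace zero. -/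
lemma tr_zero_of_invol (h2 : (2 : F) ≠ 0) {X : SL(2, F)} (h1 : mkP X ≠ 1) (h3 : mkP X * mkP X = 1) :
    tr X = 0 := by
  rw [← map_mul, mkP_eq_one_iff] at h3
  rcases h3 with h3 | h3
  · exfalso
    apply h1
    rw [mkP_eq_one_iff]
    exact (Cfsg.Agent.Lib.PSL2.Torus.mul_self_eq_one_iff h2 X).mp h3
  · exact (mul_self_eq_neg_one_iff X).mp h3

lemma central_of_comm (h2 : (2 : F) ≠ 0) {A B G : SL(2, F)} (hQ : IsQ A B) (h1 : G * A = A * G)
    (h3 : G * B = B * G) : mkP G = 1 := by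
  rw [mkP_eq_one_iff]
  by_contra hNC
  push Not at hNC
  have := commute_of_commute ⟨hNC.1, hNC.2⟩ h1 h3
  exact neg_ne_self h2 _ (this.trans (by rw [hQ.anti, neg_neg]))

/-- `C(V) = V`. -/
theorem comm_cases (h2 : (2 : F) ≠ 0) {A B G : SL(2, F)} (hQ : IsQ A B)
    (h1 : mkP G * mkP A = mkP A * mkP G) (h3 : mkP G * mkP B = mkP B * mkP G) :
    mkP G = 1 ∨ mkP G = mkP A ∨ mkP G = mkP B ∨ mkP G = mkP A * mkP B := by
  have hinvA := mkP_inv_of_tr hQ.tra
  have hinvB := mkP_inv_of_tr hQ.trb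
  have hanti : A * B = -(B * A) := hQ.anti
  have hanti' : B * A = -(A * B) := by rw [hanti, neg_neg]
  have hcommP : mkP A * mkP B = mkP B * mkP A := by
    rw [← map_mul, ← map_mul, hanti, mkP_neg]
  rw [← map_mul, ← map_mul, mkP_eq_iff] at h1 h3
  rcases h1 with ha | ha <;> rcases h3 with hb | hb
  · left
    exact central_of_comm h2 hQ ha.symm hb.symm
  · right; left
    have h5 : mkP (G * A) = 1 := by
      apply central_of_comm h2 hQ
      · calc (G * A) * A = (A * G) * A := by rw [ha]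
          _ = A * (G * A) := mul_assoc _ _ _
      · calc (G * A) * B = G * (A * B) := mul_assoc _ _ _
          _ = G * (-(B * A)) := by rw [hanti]
          _ = -(G * (B * A)) := mul_neg _ _
          _ = -((G * B) * A) := by rw [mul_assoc]
          _ = (-(G * B)) * A := (neg_mul _ _).symm
          _ = (B * G) * A := by rw [hb]
          _ = B * (G * A) := mul_assoc _ _ _
    rw [map_mul] at h5
    have := eq_inv_of_mul_eq_one_left h5
    rwa [hinvA] at this
  · right; right; left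
    have h5 : mkP (G * B) = 1 := by
      apply central_of_comm h2 hQ
      · calc (G * B) * A = G * (B * A) := mul_assoc _ _ _
          _ = G * (-(A * B)) := by rw [hanti']
          _ = -(G * (A * B)) := mul_neg _ _
          _ = -((G * A) * B) := by rw [mul_assoc]
          _ = (-(G * A)) * B := (neg_mul _ _).symm
          _ = (A * G) * B := by rw [ha]
          _ = A * (G * B) := mul_assoc _ _ _
      · calc (G * B) * B = (B * G) * B := by rw [hb]
          _ = B * (G * B) := mul_assoc _ _ _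
    rw [map_mul] at h5
    have := eq_inv_of_mul_eq_one_left h5
    rwa [hinvB] at this
  · right; right; right
    have h5 : mkP (G * (A * B)) = 1 := by
      apply central_of_comm h2 hQ
      · calc (G * (A * B)) * A = G * A * (B * A) := by simp only [mul_assoc]
          _ = G * A * (-(A * B)) := by rw [hanti']
          _ = (-(G * A)) * (A * B) := by rw [mul_neg, neg_mul]
          _ = (A * G) * (A * B) := by rw [ha]
          _ = A * (G * (A * B)) := mul_assoc _ _ _
      · calc (G * (A * B)) * B = G * (-(B * A)) * B := by rw [hanti]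
          _ = (-(G * B)) * (A * B) := by rw [mul_neg, neg_mul, neg_mul]; simp only [mul_assoc]
          _ = (B * G) * (A * B) := by rw [hb]
          _ = B * (G * (A * B)) := mul_assoc _ _ _
    rw [map_mul, map_mul] at h5
    have h6 := eq_inv_of_mul_eq_one_left h5
    rw [h6, _root_.mul_inv_rev, hinvA, hinvB, hcommP]

/-- The main theorem on involution triples. -/
theorem inv_main (h2 : (2 : F) ≠ 0) {H : Subgroup PSL(2, F)} (hC : Crit H) {A C : SL(2, F)}
    (hQ : IsQ C A) (hc : mkP C ∈ H) (ha : mkP A ∉ H)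
    (KA : ∀ g, inK H (mkP A) g → g * mkP A = mkP A * g)
    (KB : ∀ g, inK H (mkP (C * A)) g → g * mkP (C * A) = mkP (C * A) * g) : False := by
  obtain ⟨Q, hQ1, hQ2⟩ := exists_cycle h2 hQ
  -- notation in `PSL(2, F)`
  have hcomm : mkP C * mkP A = mkP A * mkP C := by
    rw [← map_mul, ← map_mul, hQ.anti, mkP_neg]
  have hinvA := mkP_inv_of_tr hQ.trb
  have hinvC := mkP_inv_of_tr hQ.tra
  have hsqA := mkP_sq_of_tr hQ.trb
  have hsqC := mkP_sq_of_tr hQ.tra
  have hb : mkP (C * A) = mkP C * mkP A := map_mul _ _ _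
  have hbH : mkP (C * A) ∉ H := by
    intro h
    apply ha
    have := H.mul_mem (H.inv_mem hc) h
    rwa [hb, ← mul_assoc, inv_mul_cancel, one_mul] at this
  obtain ⟨g, hg, hK⟩ := hC (mkP A)
  have k1 := hK (mkP A) (by simp [H.one_mem])
  have k2 := hK (mkP (C * A)) (by
    rw [hb, hcomm, inv_mul_cancel_left]
    exact hc)
  have ka := KA g k1
  have kb := KB g k2
  obtain ⟨G, rfl⟩ := mkP_surjective g
  -- the pair `A, C * A`
  have htrb : tr (C * A) = 0 := by
    have h3 : tr (C * A) = - tr (C * A) := by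
      conv_lhs => rw [hQ.anti, tr_neg, tr_mul_comm]
    have h4 : 2 * tr (C * A) = 0 := by linear_combination h3
    exact (mul_eq_zero.1 h4).resolve_left h2
  have hQ' : IsQ A (C * A) := by
    refine ⟨hQ.trb, htrb, ?_⟩
    have h5 : A * A = -1 := hQ.bb
    have h6 : C * A * A = -C := by rw [mul_assoc, h5, mul_neg, mul_one]
    rw [h6, neg_neg, ← mul_assoc]
    have h7 : A * C = -(C * A) := by rw [hQ.anti, neg_neg]
    rw [h7, neg_mul, h6, neg_neg]
  -- the cycling element
  set y : PSL(2, F) := mkP Q with hy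
  have hy1 : y * mkP C * y⁻¹ = mkP A := by
    rw [mul_inv_eq_iff_eq_mul, ← map_mul, ← map_mul, hQ1]
  have hy2 : y * mkP A * y⁻¹ = mkP (C * A) := by
    rw [mul_inv_eq_iff_eq_mul, ← map_mul, ← map_mul, hQ2]
  have hy3 : y * mkP (C * A) * y⁻¹ = mkP C := by
    calc y * mkP (C * A) * y⁻¹ = (y * mkP C * y⁻¹) * (y * mkP A * y⁻¹) := by
          rw [hb]; group
      _ = mkP A * (mkP C * mkP A) := by rw [hy1, hy2, hb]
      _ = mkP C := by rw [← mul_assoc, ← hcomm, mul_assoc, hsqA, mul_one]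
  have hnotH : mkP G ≠ mkP A ∧ mkP G ≠ mkP (C * A) := by
    constructor
    · intro e
      rw [e] at k2
      have h5 := k2 y⁻¹ (by rw [inv_inv, hy3]; exact hc)
      rw [inv_inv, hy2] at h5
      exact hbH h5
    · intro e
      rw [e] at k1
      have h6 : y⁻¹ * mkP A * y = mkP C := by
        rw [← hy1]; group
      have h7 : y⁻¹ * mkP (C * A) * y = mkP A := by
        rw [← hy2]; group
      have h5 := k1 y (by rw [h6]; exact hc)
      rw [h7] at h5
      exact ha h5
  rcases comm_cases h2 hQ' ka kb with e | e | e | e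
  · rw [e, mul_one] at hg
    apply ha
    simpa using H.inv_mem hg
  · exact hnotH.1 e
  · exact hnotH.2 e
  · rw [e, inv_mul_cancel_left] at hg
    exact hbH hg

lemma tr_of_anti [Fintype F] (h2 : (2 : F) ≠ 0) {C X : SL(2, F)} (htr : tr C = 0) (h : X * C = -(C * X)) :
    tr X = 0 := by
  have h3 : X * C * X⁻¹ = C⁻¹ := by
    rw [h, inv_eq_neg_of_tr htr, neg_mul]
    simp
  exact Cfsg.Agent.Lib.PSL2.TorusCore.tr_eq_zero_of_inverts (nc_of_tr_zero h2 htr) h3

section Finite

variable [Fintype F]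

lemma odd_card_of_two_ne (h2 : (2 : F) ≠ 0) : Fintype.card F % 2 = 1 := by
  have h3 := FiniteField.even_card_iff_char_two (F := F)
  have h4 : ringChar F ≠ 2 := by
    intro h
    apply h2
    have : CharP F 2 := by rw [← h]; exact ringChar.charP F
    exact CharTwo.two_eq_zero
  have h5 : ¬ Fintype.card F % 2 = 0 := fun h => h4 (h3.2 h)
  omega

lemma gcd_of_odd {q : ℕ} (h : q % 2 = 1) : Nat.gcd 2 (q - 1) = 2 := by
  apply Nat.gcd_eq_left
  omega

lemma nz_le_centralizer (h2 : (2 : F) ≠ 0) {A : SL(2, F)} (htr : tr A = 0) {y : PSL(2, F)}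
    (hy : y ∈ Nz A) : y * mkP A = mkP A * y := by
  obtain ⟨Y, rfl⟩ := mkP_surjective y
  have h1 : mkP A ∈ cbar A := mkP_mem_cbar.2 rfl
  have h3 := (Subgroup.mem_normalizer_iff.1 hy (mkP A)).1 h1
  rw [← map_inv, ← map_mul, ← map_mul, mkP_mem_cbar] at h3
  have htr' : tr (Y * A * Y⁻¹) = tr A := tr_conj _ _
  have h5 := eq_or_eq_inv_of_commute (nc_of_tr_zero h2 htr) (disc_of_tr_zero h2 htr) htr'
    (nc_of_tr_zero h2 (htr'.trans htr)) h3
  have h6 : mkP (Y * A * Y⁻¹) = mkP A := by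
    rcases h5 with h5 | h5
    · rw [h5]
    · rw [h5, inv_eq_neg_of_tr htr, mkP_neg]
  rw [map_mul, map_mul, map_inv, mul_inv_eq_iff_eq_mul] at h6
  exact h6

theorem kc_of_coatom (h4 : 4 ≤ Fintype.card F) (h2 : (2 : F) ≠ 0) {H : Subgroup PSL(2, F)} (hH : H ≠ ⊤)
    {A : SL(2, F)} (htr : tr A = 0) (hconj : ∃ x₀ : PSL(2, F), x₀⁻¹ * mkP A * x₀ ∈ H)
    (hco : IsCoatom (Nz A)) : ∀ g, inK H (mkP A) g → g * mkP A = mkP A * g := by
  intro g hg
  obtain ⟨x₀, hx₀⟩ := hconj
  have hNK : Nz A ≤ normalizer (Ksub H (mkP A) : Set PSL(2, F)) := by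
    intro y hy
    have hc := nz_le_centralizer h2 htr hy
    rw [Subgroup.mem_normalizer_iff]
    intro ℓ
    constructor
    · intro hℓ
      exact inK_conj_of_commute hℓ hc
    · intro hℓ
      have hc' : y⁻¹ * mkP A = mkP A * y⁻¹ := (show Commute y (mkP A) from hc).inv_left
      have := inK_conj_of_commute hℓ hc'
      rwa [show y⁻¹ * (y * ℓ * y⁻¹) * y⁻¹⁻¹ = ℓ by group] at this
  by_cases hKle : Ksub H (mkP A) ≤ Nz A
  · exact nz_le_centralizer h2 htr (hKle hg)
  exfalso
  have hlt : Nz A < normalizer (Ksub H (mkP A) : Set PSL(2, F)) := by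
    refine lt_of_le_of_ne hNK ?_
    intro e
    apply hKle
    rw [e]
    exact le_normalizer
  have htop := hco.2 _ hlt
  have hnormal : (Ksub H (mkP A)).Normal := normalizer_eq_top_iff.1 htop
  haveI : IsSimpleGroup PSL(2, F) :=
    Matrix.ProjectiveSpecialLinearGroup.rank_two_simple (by rw [Nat.card_eq_fintype_card]; omega)
  rcases IsSimpleGroup.eq_bot_or_eq_top_of_normal _ hnormal with e | e
  · have h5 := self_mem_Ksub H (mkP A)
    rw [e, mem_bot] at h5
    exact mkP_ne_one_of_tr h2 htr h5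
  · apply hH
    rw [eq_top_iff]
    intro y _
    have h5 : x₀ * y * x₀⁻¹ ∈ Ksub H (mkP A) := e ▸ mem_top _
    have h6 := h5 x₀ hx₀
    rwa [show x₀⁻¹ * (x₀ * y * x₀⁻¹) * x₀ = y by group] at h6

theorem coatom_Nz (p : ℕ) [Fact p.Prime] [CharP F p] (h2 : (2 : F) ≠ 0) (hq4 : 4 ≤ Fintype.card F)
    (hq5 : Fintype.card F ≠ 5) (hq7 : Fintype.card F ≠ 7) (hq9 : Fintype.card F ≠ 9) {A : SL(2, F)}
    (htr : tr A = 0) : IsCoatom (Nz A) := by
  obtain ⟨w, hw⟩ := exists_conj_of_tr_eq_zero h2 A A⁻¹ htr (by rw [tr_inv]; exact htr)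
  have hN := nc_of_tr_zero h2 htr
  have hd := disc_of_tr_zero h2 htr
  obtain ⟨hc, hcard⟩ := Cfsg.Agent.Lib.PSL2.MemberCyc.cbar_cyclic hN hd
  have hodd := odd_card_of_two_ne h2
  have hg := gcd_of_odd hodd
  rw [hg] at hcard
  have hdd : dd F = 2 := hg
  have hdvd : 2 ∣ Nat.card (cbar A) := by
    have h1 : mkP A ∈ cbar A := mkP_mem_cbar.2 rfl
    have h3 : orderOf (⟨mkP A, h1⟩ : cbar A) = 2 := by
      apply orderOf_eq_prime
      · apply Subtype.ext
        show mkP A ^ 2 = 1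
        rw [sq]
        exact mkP_sq_of_tr htr
      · intro e
        exact mkP_ne_one_of_tr h2 htr (congrArg Subtype.val e)
    have h5 := orderOf_dvd_natCard (⟨mkP A, h1⟩ : cbar A)
    rw [h3] at h5
    exact h5
  rcases hcard with hcard | hcard
  · refine isCoatom_Nz p hN hd hw (t := Fintype.card F + 1) ?_ (Or.inl ⟨rfl, ?_⟩)
    · rw [hcard, hdd]
      omega
    · simp only [Finset.mem_insert, Finset.mem_singleton, not_or]
      omega
  · rw [hcard] at hdvd
    refine isCoatom_Nz p hN hd hw (t := Fintype.card F - 1) ?_ (Or.inr ⟨rfl, ?_⟩)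
    · rw [hcard, hdd]
      omega
    · simp only [Finset.mem_insert, Finset.mem_singleton, not_or]
      omega

/-- Existence of the outside involution. -/
theorem exists_a (h2 : (2 : F) ≠ 0) (hq : 7 ≤ Fintype.card F) {H : Subgroup PSL(2, F)} {C : SL(2, F)}
    (htr : tr C = 0)
    (hFew : ∃ v₁ v₂ : PSL(2, F), ∀ X : SL(2, F), tr X = 0 → X * C = -(C * X) → mkP X ∈ H →
      mkP X = v₁ ∨ mkP X = v₂) : ∃ A : SL(2, F), IsQ C A ∧ mkP A ∉ H := by
  obtain ⟨v₁, v₂, hf⟩ := hFew
  obtain ⟨r, hr⟩ := exists_conj_of_tr_eq_zero h2 C C⁻¹ htr (by rw [tr_inv]; exact htr)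
  have hra : r * C = -(C * r) := by
    rw [mul_inv_eq_iff_eq_mul, inv_eq_neg_of_tr htr] at hr
    rw [hr, neg_mul]
  have hN := nc_of_tr_zero h2 htr
  have hd := disc_of_tr_zero h2 htr
  obtain ⟨hc, hcard⟩ := Cfsg.Agent.Lib.PSL2.MemberCyc.cbar_cyclic hN hd
  have hodd := odd_card_of_two_ne h2
  rw [gcd_of_odd hodd] at hcard
  have hcard3 : 3 ≤ Nat.card (cbar C) := by
    rcases hcard with h | h <;> rw [h] <;> omega
  obtain ⟨z, hz⟩ := IsCyclic.exists_generator (α := cbar C)
  have hzo : orderOf z = Nat.card (cbar C) := orderOf_eq_card_of_forall_mem_zpowers hz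
  obtain ⟨U, hU⟩ := mkP_surjective z.1
  have hUC : C * U = U * C := by
    apply mkP_mem_cbar.1
    rw [hU]
    exact z.2
  have hU1 : mkP U ≠ 1 := by
    intro e
    have : z = 1 := Subtype.ext (by rw [← hU, e]; rfl)
    rw [this, orderOf_one] at hzo
    omega
  have hU2 : mkP (U * U) ≠ 1 := by
    intro e
    have h5 : z ^ 2 = 1 := by
      apply Subtype.ext
      show z.1 ^ 2 = 1
      rw [← hU, sq, ← map_mul, e]
    have h6 := orderOf_le_of_pow_eq_one (by norm_num) h5
    omega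
  have hUU : C * (U * U) = (U * U) * C := by
    rw [← mul_assoc, hUC, mul_assoc, hUC, mul_assoc]
  have hX : ∀ W : SL(2, F), C * W = W * C → IsQ C (r * W) := by
    intro W hW
    have h5 : (r * W) * C = -(C * (r * W)) := by
      calc (r * W) * C = r * (C * W) := by rw [mul_assoc, hW]
        _ = (r * C) * W := by rw [mul_assoc]
        _ = (-(C * r)) * W := by rw [hra]
        _ = -(C * (r * W)) := by rw [neg_mul, mul_assoc]
    exact ⟨htr, tr_of_anti h2 htr h5, by rw [h5, neg_neg]⟩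
  by_contra hall
  push Not at hall
  have hfin : ∀ W : SL(2, F), C * W = W * C → mkP (r * W) = v₁ ∨ mkP (r * W) = v₂ := by
    intro W hW
    have hq' := hX W hW
    exact hf _ hq'.trb (by rw [hq'.anti, neg_neg]) (hall _ hq')
  have e0 := hfin 1 (by simp)
  have e1 := hfin U hUC
  have e2 := hfin (U * U) hUU
  have n01 : mkP (r * 1) ≠ mkP (r * U) := by
    intro e
    rw [map_mul, map_mul, mul_right_inj, map_one] at e
    exact hU1 e.symm
  have n12 : mkP (r * U) ≠ mkP (r * (U * U)) := by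
    intro e
    rw [map_mul, map_mul, mul_right_inj, map_mul] at e
    exact hU1 (by simpa using e.symm)
  have n02 : mkP (r * 1) ≠ mkP (r * (U * U)) := by
    intro e
    rw [map_mul, map_mul, mul_right_inj, map_one] at e
    exact hU2 e.symm
  rcases e0 with a | a <;> rcases e1 with b | b <;> rcases e2 with c | c <;>
    first
      | exact n01 (a.trans b.symm)
      | exact n12 (b.trans c.symm)
      | exact n02 (a.trans c.symm)

/-- The outside involution, through an isomorphism. -/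
theorem exists_a_iso (h2 : (2 : F) ≠ 0) (hq : 7 ≤ Fintype.card F) {H : Subgroup PSL(2, F)} {L : Type*}
    [Group L] (ψ : H ≃* L) {c₀ v₁ v₂ : L} (hc1 : c₀ ≠ 1) (hc2 : c₀ * c₀ = 1)
    (hfew : ∀ x : L, x * x = 1 → x * c₀ = c₀ * x → x ≠ 1 → x ≠ c₀ → x = v₁ ∨ x = v₂) :
    ∃ C A : SL(2, F), IsQ C A ∧ mkP C ∈ H ∧ mkP A ∉ H := by
  obtain ⟨C, hC⟩ := mkP_surjective (ψ.symm c₀).1
  have hCH : mkP C ∈ H := by rw [hC]; exact (ψ.symm c₀).2
  have hψC : ψ ⟨mkP C, hCH⟩ = c₀ := by
    have : (⟨mkP C, hCH⟩ : H) = ψ.symm c₀ := Subtype.ext hC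
    rw [this]
    simp
  have h1 : mkP C ≠ 1 := by
    intro e
    apply hc1
    rw [← hψC]
    have : (⟨mkP C, hCH⟩ : H) = 1 := Subtype.ext e
    rw [this, map_one]
  have h3 : mkP C * mkP C = 1 := by
    have : (⟨mkP C, hCH⟩ : H) * ⟨mkP C, hCH⟩ = 1 := by
      apply ψ.injective
      rw [map_mul, hψC, hc2, map_one]
    exact congrArg Subtype.val this
  have htr := tr_zero_of_invol h2 h1 h3
  obtain ⟨A, hA, hAH⟩ := exists_a h2 hq (H := H) htr (by
    refine ⟨(ψ.symm v₁).1, (ψ.symm v₂).1, ?_⟩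
    intro X hX hanti hXH
    have hxx : ψ ⟨mkP X, hXH⟩ * ψ ⟨mkP X, hXH⟩ = 1 := by
      rw [← map_mul]
      have : (⟨mkP X, hXH⟩ : H) * ⟨mkP X, hXH⟩ = 1 := Subtype.ext (mkP_sq_of_tr hX)
      rw [this, map_one]
    have hxc : ψ ⟨mkP X, hXH⟩ * c₀ = c₀ * ψ ⟨mkP X, hXH⟩ := by
      rw [← hψC, ← map_mul, ← map_mul]
      congr 1
      apply Subtype.ext
      show mkP X * mkP C = mkP C * mkP X
      rw [← map_mul, ← map_mul, hanti, mkP_neg]
    have hx1 : ψ ⟨mkP X, hXH⟩ ≠ 1 := by
      intro e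
      have : (⟨mkP X, hXH⟩ : H) = 1 := by
        apply ψ.injective
        rw [e, map_one]
      exact mkP_ne_one_of_tr h2 hX (congrArg Subtype.val this)
    have hx2 : ψ ⟨mkP X, hXH⟩ ≠ c₀ := by
      intro e
      have h5 : (⟨mkP X, hXH⟩ : H) = ⟨mkP C, hCH⟩ := by
        apply ψ.injective
        rw [e, hψC]
      have h6 : mkP X = mkP C := congrArg Subtype.val h5
      have hcomm : X * C = C * X := by
        rcases mkP_eq_iff.1 h6 with h7 | h7
        · rw [h7]
        · rw [h7, mul_neg, neg_mul]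
      rw [hcomm] at hanti
      exact neg_ne_self h2 _ hanti
    rcases hfew _ hxx hxc hx1 hx2 with e | e
    · left
      have : (⟨mkP X, hXH⟩ : H) = ψ.symm v₁ := by rw [← e]; simp
      exact congrArg Subtype.val this
    · right
      have : (⟨mkP X, hXH⟩ : H) = ψ.symm v₂ := by rw [← e]; simp
      exact congrArg Subtype.val this)
  exact ⟨C, A, hA, hCH, hAH⟩

end Finite

end Cfsg.Agent.Lib.Binary.Inv
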