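import Cfsg.Agent.Lib.Binary.A4
import Cfsg.Agent.Lib.Binary.Back
import Cfsg.Agent.Lib.PSL2.Dickson

/-!
# Binary actions of `PSL(2, F)`: assembling the forward direction
-/

set_option autoImplicit false
set_option linter.style.longLine false
set_option linter.style.haveILetI false
set_option linter.unusedSectionVars false
set_option linter.unusedVariables false
set_option linter.style.multiGoal false
set_option linter.unusedSimpArgs false
set_option linter.unnecessarySeqFocus false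
set_option linter.unusedDecidableInType false
set_option linter.unusedFintypeInType false

namespace Cfsg.Agent.Lib.Binary.Main

open Matrix Matrix.SpecialLinearGroup Subgroup
open scoped MatrixGroups
open Cfsg.Agent.Lib.PSL2.Basic Cfsg.Agent.Lib.PSL2.Conj Cfsg.Agent.Lib.PSL2.Members
open Cfsg.Agent.Lib.PSL2.BorelMax
open Cfsg.Agent.Lib.PSL2.FourGroup
open Cfsg.Agent.Lib.PSL2.DicksonCor (dd dd_pos exists_char card_PSL2_mul_dd mem_borelP borelP)
open Cfsg.Agent.Lib.PSL2.Solubilizer (up_one_iff)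
open Cfsg.Agent.Lib.PSL2.Dickson (DicksonGoal dickson)
open Cfsg.Agent.Lib.Binary.Core Cfsg.Agent.Lib.Binary.Uni Cfsg.Agent.Lib.Binary.Cyc
open Cfsg.Agent.Lib.Binary.Inv Cfsg.Agent.Lib.Binary.Small Cfsg.Agent.Lib.Binary.Small2
open Cfsg.Agent.Lib.Binary.A4 Cfsg.Agent.Lib.Binary.Back

variable {F : Type*} [Field F] [Fintype F]

lemma x_pow_char_P (p : ℕ) [hp : Fact p.Prime] [CharP F p] (t : F) : mkP (x t) ^ p = 1 := by
  rw [← map_pow, x_pow, CharP.cast_eq_zero, zero_mul, x_zero, map_one]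

/-- Subgroups of the Borel subgroup of order prime to `p` are cyclic. -/
theorem cyc_of_le_upper (p : ℕ) [hp : Fact p.Prime] [CharP F p] {H : Subgroup PSL(2, F)}
    (hcop : ¬ p ∣ Nat.card H) (hup : ∀ Z : SL(2, F), mkP Z ∈ H → Z.1 1 0 = 0) : IsCyclic H := by
  classical
  choose L hL using (mkP_surjective : Function.Surjective (mkP : SL(2, F) → PSL(2, F)))
  have hval : ∀ Z : SL(2, F), ((L (mkP Z)).1 0 0) ^ 2 = (Z.1 0 0) ^ 2 := by
    intro Z
    rcases mkP_eq_iff.1 (hL (mkP Z)).symm with h | h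
    · rw [h]
    · rw [h]
      simp
  have hne : ∀ Z : SL(2, F), Z.1 1 0 = 0 → Z.1 0 0 ≠ 0 := by
    intro Z hZ e
    have := det_entries Z
    rw [hZ, e] at this
    simp at this
  let f : H →* F :=
    { toFun := fun y => ((L y.1).1 0 0) ^ 2
      map_one' := by
        show ((L (1 : PSL(2, F))).1 0 0) ^ 2 = 1
        have := hval 1
        rw [map_one] at this
        rw [this]
        simp
      map_mul' := by
        intro y₁ y₂
        show ((L (y₁.1 * y₂.1)).1 0 0) ^ 2 = ((L y₁.1).1 0 0) ^ 2 * ((L y₂.1).1 0 0) ^ 2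
        have h1 : y₁.1 * y₂.1 = mkP (L y₁.1 * L y₂.1) := by rw [map_mul, hL, hL]
        rw [h1, hval]
        have h5 : (L y₂.1).1 1 0 = 0 := hup _ (by rw [hL]; exact y₂.2)
        simp only [mul_00, h5]
        ring }
  have hf : ∀ y : H, f y = ((L y.1).1 0 0) ^ 2 := fun y => rfl
  have hfne : ∀ y : H, f y ≠ 0 := by
    intro y
    rw [hf]
    exact pow_ne_zero _ (hne _ (hup _ (by rw [hL]; exact y.2)))
  have hker : ∀ y : H, f y = 1 → y = 1 := by
    intro y hy
    rw [hf] at hy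
    set Z := L y.1 with hZ
    have hZy : mkP Z = y.1 := hL _
    have h10 : Z.1 1 0 = 0 := hup _ (by rw [hZy]; exact y.2)
    have hdet := det_entries Z
    rw [h10] at hdet
    have hcases : Z.1 0 0 = 1 ∨ Z.1 0 0 = -1 := by
      have : (Z.1 0 0 - 1) * (Z.1 0 0 + 1) = 0 := by linear_combination hy
      rcases mul_eq_zero.1 this with h | h
      · left; linear_combination h
      · right; linear_combination h
    have hroot : ∃ t : F, y.1 = mkP (x t) := by
      rcases hcases with h | h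
      · refine ⟨Z.1 0 1, ?_⟩
        rw [← hZy]
        congr 1
        rw [h] at hdet
        apply ext2 <;> simp [h, h10]
        linear_combination hdet
      · refine ⟨-Z.1 0 1, ?_⟩
        rw [← hZy]
        apply mkP_eq_iff.2
        right
        rw [h] at hdet
        apply ext2 <;> simp [h, h10]
        linear_combination -hdet
    obtain ⟨t, ht⟩ := hroot
    have h3 : y ^ p = 1 := by
      apply Subtype.ext
      show y.1 ^ p = 1
      rw [ht]
      exact x_pow_char_P p t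
    have h4 := orderOf_dvd_of_pow_eq_one h3
    rcases (Nat.dvd_prime hp.out).1 h4 with h5 | h5
    · exact orderOf_eq_one_iff.1 h5
    · exfalso
      apply hcop
      rw [← h5]
      exact orderOf_dvd_natCard _
  refine isCyclic_of_injective_ringHom f ?_
  intro y₁ y₂ h
  have h3 : f (y₁ * y₂⁻¹) = 1 := by
    have h5 : f (y₁ * y₂⁻¹) * f y₂ = f y₂ := by
      rw [← map_mul, inv_mul_cancel_right, h]
    exact mul_right_cancel₀ (hfne y₂) (by rw [h5, one_mul])
  have h4 := hker _ h3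
  exact mul_inv_eq_one.1 h4

/-- Subgroups of the normaliser of a Sylow `p`-subgroup of order prime to `p` are cyclic. -/
theorem cyc_of_sylow (p : ℕ) [hp : Fact p.Prime] [CharP F p] {H : Subgroup PSL(2, F)}
    (hcop : ¬ p ∣ Nat.card H) (P : Sylow p PSL(2, F))
    (hle : H ≤ normalizer ((P : Subgroup PSL(2, F)) : Set PSL(2, F))) : IsCyclic H := by
  obtain ⟨Q, hQ1, hQ2⟩ := Cfsg.Agent.Lib.PSL2.SylowU.exists_isPGroup_map_eq p mkP mkP_surjective
    (P : Subgroup PSL(2, F)) P.isPGroup'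
  obtain ⟨g, hg⟩ := Cfsg.Agent.Lib.PSL2.SylowU.exists_conj_mem_U_of_isPGroup p hQ1
  set y : PSL(2, F) := mkP g with hy
  have hUbarP : IsPGroup p (Ubar F) := by
    intro u
    obtain ⟨W, ⟨t, rfl⟩, hW⟩ := u.2
    refine ⟨1, ?_⟩
    apply Subtype.ext
    show u.1 ^ p ^ 1 = 1
    rw [pow_one, ← hW]
    exact x_pow_char_P p t
  have hmaxle : (P : Subgroup PSL(2, F)) ≤ cj y⁻¹ (Ubar F) := by
    intro h hh
    rw [← hQ2] at hh
    obtain ⟨a, ha, rfl⟩ := hh
    rw [mem_cj, inv_inv, hy, ← map_inv, ← map_mul, ← map_mul]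
    exact ⟨_, hg a ha, rfl⟩
  have hPeq : cj y⁻¹ (Ubar F) = P := P.is_maximal' (hUbarP.map _) hmaxle
  have hcop' : ¬ p ∣ Nat.card (cj y H) := by rwa [card_cj]
  have hup : ∀ Z : SL(2, F), mkP Z ∈ cj y H → Z.1 1 0 = 0 := by
    intro Z hZ
    have h1 : y⁻¹ * mkP Z * y ∈ normalizer ((P : Subgroup PSL(2, F)) : Set PSL(2, F)) :=
      hle (mem_cj.1 hZ)
    have h3 : y⁻¹ * mkP (x 1) * y ∈ (P : Subgroup PSL(2, F)) := by
      rw [← hPeq, mem_cj, inv_inv]
      have h5 : y * (y⁻¹ * mkP (x 1) * y) * y⁻¹ = mkP (x 1) := by group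
      rw [h5]
      exact x_mem_Ubar 1
    have h4 := (Subgroup.mem_normalizer_iff.1 h1 _).1 h3
    rw [← hPeq, mem_cj, inv_inv] at h4
    have h5 : y * (y⁻¹ * mkP Z * y * (y⁻¹ * mkP (x 1) * y) * (y⁻¹ * mkP Z * y)⁻¹) * y⁻¹ =
        mkP (Z * x 1 * Z⁻¹) := by
      simp only [map_mul, map_inv]
      group
    rw [h5] at h4
    have h6 := lower_eq_zero_of_mem_Ubar h4
    simp only [mul_10, mul_11, x_00, x_01, x_10, x_11, inv_00, inv_10] at h6
    have h7 : (Z.1 1 0) ^ 2 = 0 := by linear_combination -h6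
    exact pow_eq_zero_iff (two_ne_zero) |>.1 h7
  have hc := cyc_of_le_upper p hcop' hup
  exact isCyclic_of_surjective (cjEquiv y H).symm (MulEquiv.surjective _)

lemma card_two_pow (h2 : (2 : F) = 0) : ∃ a : ℕ, Fintype.card F = 2 ^ a := by
  haveI : Fact (Nat.Prime 2) := ⟨Nat.prime_two⟩
  haveI : CharP F 2 := CharTwo.of_one_ne_zero_of_two_eq_zero one_ne_zero h2
  obtain ⟨n, -, hn⟩ := FiniteField.card F 2
  exact ⟨n, hn⟩

/-- The case `p ∣ |H|`. -/
theorem Pcase (h4 : 4 ≤ Fintype.card F) (p : ℕ) [hp : Fact p.Prime] [CharP F p] {H : Subgroup PSL(2, F)}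
    (hC : Crit H) (hH : H ≠ ⊤) (hd : p ∣ Nat.card H) : (2 : F) = 0 ∧ ∃ P : Sylow 2 PSL(2, F), H = P := by
  obtain ⟨h, hh⟩ := exists_prime_orderOf_dvd_card' p hd
  have hhp : orderOf h.1 = p := by rw [← hh]; exact Subgroup.orderOf_coe h
  have hQ : IsPGroup p (zpowers h.1) := IsPGroup.of_card (n := 1) (by rw [Nat.card_zpowers, hhp, pow_one])
  obtain ⟨Q, hQ1, hQ2⟩ := Cfsg.Agent.Lib.PSL2.SylowU.exists_isPGroup_map_eq p mkP mkP_surjective _ hQ
  obtain ⟨g, hg⟩ := Cfsg.Agent.Lib.PSL2.SylowU.exists_conj_mem_U_of_isPGroup p hQ1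
  have hmem : h.1 ∈ Q.map mkP := hQ2 ▸ mem_zpowers _
  obtain ⟨a, haQ, hah⟩ := hmem
  obtain ⟨t, ht⟩ := hg a haQ
  have ht0 : t ≠ 0 := by
    rintro rfl
    have h5 : a = 1 := by
      rw [x_zero] at ht
      have : g * a * g⁻¹ = 1 := ht
      rw [mul_inv_eq_one, mul_eq_left] at this
      exact this
    have h6 : h.1 = 1 := by rw [← hah, h5, map_one]
    rw [h6, orderOf_one] at hhp
    exact hp.out.one_lt.ne hhp
  set y : PSL(2, F) := mkP g with hy
  have htH : mkP (x t) ∈ cj y H := by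
    rw [mem_cj, ← ht, map_mul, map_mul, map_inv, ← hy, hah]
    have h5 : y⁻¹ * (y * h.1 * y⁻¹) * y = h.1 := by group
    rw [h5]
    exact h.2
  have hC₁ := hC.conj y
  have hH₁ : cj y H ≠ ⊤ := cj_ne_top hH
  by_cases hR : NoRoot (cj y H)
  · exfalso
    by_cases h2 : (2 : F) = 0
    · exact P2e h4 h2 hC₁ hH₁ hR ht0 htH
    · exact P_odd h4 h2 hC₁ hH₁ ht0 htH (fun s hs hconj => kex_x h4 hH₁ hR hs hconj)
  · unfold NoRoot at hR
    push Not at hR
    obtain ⟨a', ha'⟩ := hR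
    have hU : ∀ s : F, mkP (x s) ∈ cj a'⁻¹ (cj y H) := by
      intro s
      rw [mem_cj, inv_inv]
      exact ha' s
    have hC₂ := hC₁.conj a'⁻¹
    have hH₂ : cj a'⁻¹ (cj y H) ≠ ⊤ := cj_ne_top hH₁
    have hUle : Ubar F ≤ cj a'⁻¹ (cj y H) := by
      rintro _ ⟨W, ⟨s, rfl⟩, rfl⟩
      exact hU s
    have hB₂ := (le_or_eq_top hUle).resolve_right hH₂
    have hup : ∀ Z : SL(2, F), mkP Z ∈ cj a'⁻¹ (cj y H) → Z.1 1 0 = 0 :=
      fun Z hZ => (up_one_iff Z).1 (mem_borelP.1 (hB₂ hZ))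
    by_cases hle : cj a'⁻¹ (cj y H) ≤ Ubar F
    · have heq : cj a'⁻¹ (cj y H) = Ubar F := le_antisymm hle hUle
      by_cases h2 : (2 : F) = 0
      · refine ⟨h2, sylow_of_card h2 ?_⟩
        rw [← heq, card_cj, card_cj]
      · exfalso
        refine P_odd h4 h2 hC₂ hH₂ (e := 1) one_ne_zero (hU 1) (fun s _ _ => ?_)
        rw [heq]
        exact kex_x_Ubar s
    · exfalso
      obtain ⟨z, hz, hzU⟩ := Set.not_subset.1 hle
      obtain ⟨Z, rfl⟩ := mkP_surjective z
      obtain ⟨c, hc, b₀, rfl⟩ := eq_b_of_10 Z (hup _ hz)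
      have hcc : c ^ 2 ≠ 1 := by
        intro e
        apply hzU
        have hcases : c = 1 ∨ c = -1 := by
          have : (c - 1) * (c + 1) = 0 := by linear_combination e
          rcases mul_eq_zero.1 this with h | h
          · left; linear_combination h
          · right; linear_combination h
        rcases hcases with rfl | rfl
        · have : b 1 hc b₀ = x b₀ := by apply ext2 <;> simp
          rw [this]
          exact x_mem_Ubar _
        · have : mkP (b (-1) hc b₀) = mkP (x (-b₀)) := by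
            apply mkP_eq_iff.2
            right
            apply ext2 <;> simp
          rw [this]
          exact x_mem_Ubar _
      have hd' : mkP (d c hc) ∈ cj a'⁻¹ (cj y H) := by
        have h5 : d c hc = b c hc b₀ * x (-b₀ / c) := by
          apply ext2 <;> simp <;> field_simp <;> ring
        rw [h5, map_mul]
        exact (cj a'⁻¹ (cj y H)).mul_mem hz (hU _)
      exact P1b hC₂ hU hup hc hcc hd'

/-- Trace of the product of a quaternion pair. -/
lemma tr_mul_of_isQ (h2 : (2 : F) ≠ 0) {C A : SL(2, F)} (hQ : IsQ C A) : tr (C * A) = 0 := by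
  have h3 : tr (C * A) = - tr (C * A) := by
    conv_lhs => rw [hQ.anti, tr_neg, tr_mul_comm]
  have h4 : 2 * tr (C * A) = 0 := by linear_combination h3
  exact (mul_eq_zero.1 h4).resolve_left h2

/-- The route through involutions. -/
theorem inv_route (h2 : (2 : F) ≠ 0) (hq : 7 ≤ Fintype.card F) {H : Subgroup PSL(2, F)} (hC : Crit H)
    {L : Type*} [Group L] (ψ : H ≃* L) {c₀ v₁ v₂ : L} (hc1 : c₀ ≠ 1) (hc2 : c₀ * c₀ = 1)
    (hfew : ∀ x : L, x * x = 1 → x * c₀ = c₀ * x → x ≠ 1 → x ≠ c₀ → x = v₁ ∨ x = v₂)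
    (KC : ∀ A : SL(2, F), tr A = 0 → ∀ g, inK H (mkP A) g → g * mkP A = mkP A * g) : False := by
  obtain ⟨C, A, hQ, hc, ha⟩ := exists_a_iso h2 hq ψ hc1 hc2 hfew
  exact inv_main h2 hC hQ hc ha (KC A hQ.trb) (KC (C * A) (tr_mul_of_isQ h2 hQ))

theorem kc_large (p : ℕ) [hp : Fact p.Prime] [CharP F p] (h2 : (2 : F) ≠ 0) (h4 : 4 ≤ Fintype.card F)
    (h5 : Fintype.card F ≠ 5) (h7 : Fintype.card F ≠ 7) (h9 : Fintype.card F ≠ 9) {H : Subgroup PSL(2, F)}
    (hH : H ≠ ⊤) {L : Type*} [Group L] (ψ : H ≃* L) {c₀ : L} (hc1 : c₀ ≠ 1) (hc2 : c₀ * c₀ = 1) :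
    ∀ A : SL(2, F), tr A = 0 → ∀ g, inK H (mkP A) g → g * mkP A = mkP A * g := by
  intro A htr
  obtain ⟨x₀, ha, -⟩ := role h2 ψ hc1 hc2 htr
  exact kc_of_coatom h4 h2 hH htr ⟨x₀, ha⟩ (coatom_Nz p h2 h4 h5 h7 h9 htr)

/-- `2` is a square for `q = 7, 9`. -/
lemma exists_sqrt_two (h : Fintype.card F = 7 ∨ Fintype.card F = 9) : ∃ ρ : F, ρ ^ 2 = 2 := by
  have h3 : IsSquare (2 : F) := by
    rw [FiniteField.isSquare_two_iff]
    rcases h with h | h <;> rw [h] <;> norm_num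
  obtain ⟨ρ, hρ⟩ := h3
  exact ⟨ρ, by rw [hρ]; ring⟩

lemma char_three_of_nine (p : ℕ) [hp : Fact p.Prime] [CharP F p] (h : Fintype.card F = 9) : p = 3 := by
  obtain ⟨n, -, hn⟩ := FiniteField.card F p
  rw [h] at hn
  have h3 : p ∣ 3 ^ 2 := by
    rw [show (3 : ℕ) ^ 2 = 9 by norm_num, hn]
    exact dvd_pow_self p n.ne_zero
  have h5 := hp.out.dvd_of_dvd_pow h3
  exact (Nat.prime_dvd_prime_iff_eq hp.out Nat.prime_three).1 h5

section Few

lemma few_A4 : ∀ x : L4, x * x = 1 → x * i₀ = i₀ * x → x ≠ 1 → x ≠ i₀ → x = j₀ ∨ x = k₀ := by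
  decide +kernel

lemma few_S4 : ∀ x : Equiv.Perm (Fin 4), x * x = 1 → x * Equiv.swap 0 1 = Equiv.swap 0 1 * x → x ≠ 1 →
    x ≠ Equiv.swap 0 1 → x = Equiv.swap 2 3 ∨ x = Equiv.swap 0 1 * Equiv.swap 2 3 := by
  decide +kernel

abbrev L5 : Type := alternatingGroup (Fin 5)

def c5 : L5 := ⟨Equiv.swap 0 1 * Equiv.swap 2 3, Equiv.Perm.mem_alternatingGroup.2 (by decide)⟩
def v5 : L5 := ⟨Equiv.swap 0 2 * Equiv.swap 1 3, Equiv.Perm.mem_alternatingGroup.2 (by decide)⟩
def w5 : L5 := ⟨Equiv.swap 0 3 * Equiv.swap 1 2, Equiv.Perm.mem_alternatingGroup.2 (by decide)⟩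

lemma few_A5 : ∀ x : L5, x * x = 1 → x * c5 = c5 * x → x ≠ 1 → x ≠ c5 → x = v5 ∨ x = w5 := by
  decide +kernel

lemma c5_ne : c5 ≠ 1 := by decide +kernel
lemma c5_sq : c5 * c5 = 1 := by decide +kernel

end Few

/-- Non-cyclic stabilisers of order prime to `p`, `q` odd. -/
theorem Q_noncyc (h4 : 4 ≤ Fintype.card F) (h5 : Fintype.card F ≠ 5) (p : ℕ) [hp : Fact p.Prime] [CharP F p]
    (h2 : (2 : F) ≠ 0) {H : Subgroup PSL(2, F)} (hC : Crit H) (hH : H ≠ ⊤) (hcop : ¬ p ∣ Nat.card H)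
    (hcases : (∃ k : ℕ, Nonempty (H ≃* DihedralGroup k)) ∨ Nonempty (H ≃* L4) ∨
      Nonempty (H ≃* Equiv.Perm (Fin 4)) ∨ Nonempty (H ≃* L5)) : False := by
  have hodd := odd_card_of_two_ne h2
  have hq7 : 7 ≤ Fintype.card F := by omega
  by_cases hbig : Fintype.card F = 7 ∨ Fintype.card F = 9
  · obtain ⟨ρ, hρ⟩ := exists_sqrt_two hbig
    rcases hcases with ⟨k, ⟨ψ⟩⟩ | ⟨⟨ψ⟩⟩ | ⟨⟨ψ⟩⟩ | ⟨⟨ψ⟩⟩
    · have hk : k ≠ 0 := by
        rintro rfl
        have := Nat.card_congr ψ.toEquiv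
        rw [DihedralGroup.nat_card] at this
        have h6 : 0 < Nat.card H := Nat.card_pos
        omega
      haveI : NeZero k := ⟨hk⟩
      refine inv_route h2 hq7 hC ψ (c₀ := DihedralGroup.sr 0) (by intro h; rw [DihedralGroup.one_def] at h; cases h)
        (by simp) (fun x h1 h3 h6 h7 => dih_few x h1 h3 h6 h7) ?_
      intro A htr
      exact kc_dih p h2 hρ hcop ψ htr
    · rcases hbig with h7 | h9
      · exact a4_q7 h7 hC ψ
      · apply hcop
        rw [char_three_of_nine p h9, Nat.card_congr ψ.toEquiv]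
        have : Nat.card L4 = 12 := by
          rw [Nat.card_eq_fintype_card]
          decide +kernel
        rw [this]
        norm_num
    · refine inv_route h2 hq7 hC ψ (c₀ := Equiv.swap 0 1) (by decide) (by decide) few_S4 ?_
      rcases hbig with h7 | h9
      · intro A htr
        exact kc_s4 p h2 hρ hcop ψ htr
      · exfalso
        apply hcop
        rw [char_three_of_nine p h9, Nat.card_congr ψ.toEquiv]
        rw [Nat.card_eq_fintype_card, Fintype.card_perm, Fintype.card_fin]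
        decide
    · exfalso
      rcases hbig with h7 | h9
      · have h60 : Nat.card H = 60 := by
          rw [Nat.card_congr ψ.toEquiv, Nat.card_eq_fintype_card]
          decide +kernel
        have h6 := Subgroup.card_subgroup_dvd_card H
        have h8 := card_PSL2_of_two_ne_zero (F := F) h2
        rw [h7] at h8
        have h9 : Nat.card PSL(2, F) = 168 := by omega
        rw [h60, h9] at h6
        norm_num at h6
      · apply hcop
        have h60 : Nat.card H = 60 := by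
          rw [Nat.card_congr ψ.toEquiv, Nat.card_eq_fintype_card]
          decide +kernel
        rw [char_three_of_nine p h9, h60]
        norm_num
  · push Not at hbig
    obtain ⟨h7, h9⟩ := hbig
    rcases hcases with ⟨k, ⟨ψ⟩⟩ | ⟨⟨ψ⟩⟩ | ⟨⟨ψ⟩⟩ | ⟨⟨ψ⟩⟩
    · have hk : k ≠ 0 := by
        rintro rfl
        have := Nat.card_congr ψ.toEquiv
        rw [DihedralGroup.nat_card] at this
        have h6 : 0 < Nat.card H := Nat.card_pos
        omega
      haveI : NeZero k := ⟨hk⟩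
      have hc1 : (DihedralGroup.sr 0 : DihedralGroup k) ≠ 1 := by
        intro h; rw [DihedralGroup.one_def] at h; cases h
      have hc2 : (DihedralGroup.sr 0 : DihedralGroup k) * DihedralGroup.sr 0 = 1 := by simp
      exact inv_route h2 hq7 hC ψ hc1 hc2 (fun x h1 h3 h6 h8 => dih_few x h1 h3 h6 h8)
        (kc_large p h2 h4 h5 h7 h9 hH ψ hc1 hc2)
    · exact inv_route h2 hq7 hC ψ f_i1 f_ii few_A4 (kc_large p h2 h4 h5 h7 h9 hH ψ f_i1 f_ii)
    · have hc1 : (Equiv.swap 0 1 : Equiv.Perm (Fin 4)) ≠ 1 := by decide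
      have hc2 : (Equiv.swap 0 1 : Equiv.Perm (Fin 4)) * Equiv.swap 0 1 = 1 := by decide
      exact inv_route h2 hq7 hC ψ hc1 hc2 few_S4 (kc_large p h2 h4 h5 h7 h9 hH ψ hc1 hc2)
    · exact inv_route h2 hq7 hC ψ c5_ne c5_sq few_A5 (kc_large p h2 h4 h5 h7 h9 hH ψ c5_ne c5_sq)

/-- A non-trivial element of `H`. -/
lemma exists_lift_ne {H : Subgroup PSL(2, F)} (hbot : H ≠ ⊥) : ∃ A : SL(2, F), mkP A ∈ H ∧ NC A := by
  obtain ⟨z, hz, hz1⟩ := (Subgroup.bot_or_exists_ne_one H).resolve_left hbot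
  obtain ⟨A, rfl⟩ := mkP_surjective z
  refine ⟨A, hz, ?_, ?_⟩
  · rintro rfl
    exact hz1 (map_one _)
  · rintro rfl
    exact hz1 mkP_neg_one

/-- Cyclic stabilisers of order prime to `p`, `q` odd. -/
theorem Q_cyc_odd (p : ℕ) [hp : Fact p.Prime] [CharP F p] (h2 : (2 : F) ≠ 0) {H : Subgroup PSL(2, F)}
    (hC : Crit H) (hbot : H ≠ ⊥) (hcop : ¬ p ∣ Nat.card H) (hc : IsCyclic H) : False := by
  obtain ⟨A, hA, hNC⟩ := exists_lift_ne hbot
  exact cyc_main hC hA (tr_sq_ne_of_coprime p hcop hA hNC) (Or.inr h2)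

/-- Cyclic stabilisers of odd order, `q` even. -/
theorem Q_cyc_even (h4 : 4 ≤ Fintype.card F) (h2 : (2 : F) = 0) {H : Subgroup PSL(2, F)} (hC : Crit H)
    (hbot : H ≠ ⊥) (hcop : ¬ 2 ∣ Nat.card H) (hc : IsCyclic H) :
    (∃ a : ℕ, Odd a ∧ Fintype.card F = 2 ^ a) ∧ Nat.card H = 3 := by
  haveI : Fact (Nat.Prime 2) := ⟨Nat.prime_two⟩
  haveI : CharP F 2 := CharTwo.of_one_ne_zero_of_two_eq_zero one_ne_zero h2
  obtain ⟨z, hz⟩ := IsCyclic.exists_generator (α := H)
  have hzo : orderOf z = Nat.card H := orderOf_eq_card_of_forall_mem_zpowers hz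
  obtain ⟨A, hA⟩ := mkP_surjective z.1
  have hAH : mkP A ∈ H := by rw [hA]; exact z.2
  have hz1 : z ≠ 1 := by
    rintro rfl
    apply hbot
    rw [orderOf_one] at hzo
    exact Subgroup.eq_bot_of_card_eq _ hzo.symm
  have hNC : NC A := by
    constructor
    · rintro rfl
      apply hz1
      apply Subtype.ext
      rw [← hA, map_one]
      rfl
    · rintro rfl
      apply hz1
      apply Subtype.ext
      rw [← hA, mkP_neg_one]
      rfl
  have hτ := tr_sq_ne_of_coprime 2 hcop hAH hNC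
  have hneg1 : (-1 : F) = 1 := by linear_combination -h2
  by_cases htr : tr A = 1
  · have hcube : A * A * A = 1 := pow_three_of_tr (by rw [htr, hneg1])
    have hz3 : z ^ 3 = 1 := by
      apply Subtype.ext
      show z.1 ^ 3 = 1
      rw [← hA, ← map_pow, pow_succ, pow_two, hcube, map_one]
    have hdvd := orderOf_dvd_of_pow_eq_one hz3
    have hcard : Nat.card H = 3 := by
      rw [← hzo]
      rcases (Nat.dvd_prime Nat.prime_three).1 hdvd with h6 | h6
      · exact absurd (orderOf_eq_one_iff.1 h6) hz1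
      · exact h6
    refine ⟨?_, hcard⟩
    obtain ⟨a, ha⟩ := card_two_pow h2
    refine ⟨a, ?_, ha⟩
    by_contra hodd
    rw [Nat.not_odd_iff_even] at hodd
    obtain ⟨ω, hω⟩ := exists_root_of_even hodd ha h4
    exact cyc_even3 hC h2 hAH htr hω
  · exfalso
    refine cyc_main hC hAH hτ (Or.inl ?_)
    rw [hneg1]
    exact htr

/-- The alternatives of Dickson's theorem with `p ∤ |H|`. -/
theorem Q_dickson (p : ℕ) [hp : Fact p.Prime] [CharP F p] {H : Subgroup PSL(2, F)} (hcop : ¬ p ∣ Nat.card H)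
    (hq : 4 ≤ Fintype.card F) :
    IsCyclic H ∨ (∃ k : ℕ, Nonempty (H ≃* DihedralGroup k)) ∨ Nonempty (H ≃* L4) ∨
      Nonempty (H ≃* Equiv.Perm (Fin 4)) ∨ Nonempty (H ≃* L5) := by
  rcases dickson (p := p) H with ⟨k, -, ⟨hc, -⟩ | hd⟩ | ⟨P, hP⟩ | h | h | h | ⟨K, _, _, m, hm, hK⟩
  · exact Or.inl hc
  · exact Or.inr (Or.inl ⟨k, hd⟩)
  · exact Or.inl (cyc_of_sylow p hcop P hP)
  · exact Or.inr (Or.inr (Or.inl h))
  · exact Or.inr (Or.inr (Or.inr (Or.inl h)))
  · exact Or.inr (Or.inr (Or.inr (Or.inr h)))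
  · exfalso
    apply hcop
    obtain ⟨n, -, hn⟩ := FiniteField.card F p
    have hm0 : m ≠ 0 := by
      rintro rfl
      rw [pow_zero] at hm
      omega
    have hpK : p ∣ Fintype.card K := by
      apply hp.out.dvd_of_dvd_pow (n := m)
      rw [hm, hn]
      exact dvd_pow_self p n.ne_zero
    have hKq2 := Cfsg.Agent.Lib.PSL2.DicksonCor.card_ge_two K
    rcases hK with ⟨⟨e⟩⟩ | ⟨⟨e⟩⟩
    · have h3 := card_PSL2_mul_dd K
      rw [← Nat.card_congr e.toEquiv] at h3
      have h5 : p ∣ Nat.card H * dd K := by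
        rw [h3]
        exact Dvd.dvd.mul_right hpK _
      rcases (Nat.Prime.dvd_mul hp.out).1 h5 with h6 | h6
      · exact h6
      · exfalso
        have h7 : dd K ∣ 2 := Cfsg.Agent.Lib.PSL2.DicksonCor.dd_dvd_two K
        have h8 : p ∣ 2 := h6.trans h7
        have h9 : p = 2 := (Nat.prime_dvd_prime_iff_eq hp.out Nat.prime_two).1 h8
        subst h9
        have h10 : 2 ∣ Fintype.card K - 1 := h6.trans (Nat.gcd_dvd_right _ _)
        omega
    · rw [Nat.card_congr e.toEquiv, Cfsg.Agent.Lib.PSL2.FieldEmbed.card_PGL]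
      exact Dvd.dvd.mul_right hpK _

/-- The forward direction. -/
theorem forward (h4 : 4 ≤ Fintype.card F) (h5 : Fintype.card F ≠ 5) {H : Subgroup PSL(2, F)} (hH : H ≠ ⊤)
    (hB : Bin H) :
    H = ⊥ ∨ ((∃ a : ℕ, Fintype.card F = 2 ^ a) ∧ ∃ P : Sylow 2 PSL(2, F), H = P) ∨
      ((∃ a : ℕ, Odd a ∧ Fintype.card F = 2 ^ a) ∧ Nat.card H = 3) := by
  by_cases hbot : H = ⊥
  · exact Or.inl hbot
  right
  have hC := hB.crit
  obtain ⟨p, hp, hchar⟩ := exists_char F
  haveI : Fact p.Prime := ⟨hp⟩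
  by_cases hd : p ∣ Nat.card H
  · obtain ⟨h2, P, hP⟩ := Pcase h4 p hC hH hd
    exact Or.inl ⟨card_two_pow h2, P, hP⟩
  by_cases h2 : (2 : F) = 0
  · have hp2 : p = 2 := Cfsg.Agent.Lib.PSL2.Orders.char_eq_two_of_two_eq_zero h2
    subst hp2
    right
    rcases Q_dickson 2 hd h4 with hc | ⟨k, ⟨ψ⟩⟩ | ⟨⟨ψ⟩⟩ | ⟨⟨ψ⟩⟩ | ⟨⟨ψ⟩⟩
    · exact Q_cyc_even h4 h2 hC hbot hd hc
    · exfalso
      apply hd
      rw [Nat.card_congr ψ.toEquiv, DihedralGroup.nat_card]
      exact dvd_mul_right _ _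
    · exfalso
      apply hd
      rw [Nat.card_congr ψ.toEquiv]
      have : Nat.card L4 = 12 := by
        rw [Nat.card_eq_fintype_card]
        decide +kernel
      rw [this]
      norm_num
    · exfalso
      apply hd
      rw [Nat.card_congr ψ.toEquiv, Nat.card_eq_fintype_card, Fintype.card_perm, Fintype.card_fin]
      decide
    · exfalso
      apply hd
      rw [Nat.card_congr ψ.toEquiv]
      have : Nat.card L5 = 60 := by
        rw [Nat.card_eq_fintype_card]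
        decide +kernel
      rw [this]
      norm_num
  · exfalso
    rcases Q_dickson p hd h4 with hc | hrest
    · exact Q_cyc_odd p h2 hC hbot hd hc
    · exact Q_noncyc h4 h5 p h2 hC hH hd hrest

end Cfsg.Agent.Lib.Binary.Main
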