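import Cfsg.Agent.Lib.Binary.Inv

/-!
# Binary actions of `PSL(2, F)`: the involution triple when `2` is a square
-/

set_option autoImplicit false
set_option linter.style.longLine false
set_option linter.style.haveILetI false
set_option linter.unusedSectionVars false
set_option linter.unusedVariables false
set_option linter.style.multiGoal false
set_option linter.unusedSimpArgs false
set_option linter.unnecessarySeqFocus false

namespace Cfsg.Agent.Lib.Binary.Small

open Matrix Matrix.SpecialLinearGroup Subgroup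
open scoped MatrixGroups
open Cfsg.Agent.Lib.PSL2.Basic Cfsg.Agent.Lib.PSL2.Conj Cfsg.Agent.Lib.PSL2.Members
open Cfsg.Agent.Lib.PSL2.FourGroup
open Cfsg.Agent.Lib.PSL2.Torus (mul_self_eq_neg_one_iff)
open Cfsg.Agent.Lib.PSL2.TraceZero (exists_conj_of_tr_eq_zero)
open Cfsg.Agent.Lib.PSL2.Unipotent (orderOf_eq_char_iff)
open Cfsg.Agent.Lib.Binary.Core Cfsg.Agent.Lib.Binary.Uni Cfsg.Agent.Lib.Binary.Cyc
open Cfsg.Agent.Lib.Binary.Inv

variable {F : Type*} [Field F] [Fintype F]

theorem kc_small (h2 : (2 : F) ≠ 0) {ρ : F} (hρ : ρ ^ 2 = 2) {H : Subgroup PSL(2, F)} {A : SL(2, F)}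
    (htr : tr A = 0)
    (HP : ∀ w₁ w₂, inK H (mkP A) w₁ → inK H (mkP A) w₂ →
      w₂ * mkP A * w₂⁻¹ ≠ (w₁ * mkP A * w₁⁻¹) * mkP A)
    (HC : ∀ w₁ w₂, inK H (mkP A) w₁ → inK H (mkP A) w₂ →
      ((w₁ * mkP A * w₁⁻¹) * mkP A) * ((w₂ * mkP A * w₂⁻¹) * mkP A) =
        ((w₂ * mkP A * w₂⁻¹) * mkP A) * ((w₁ * mkP A * w₁⁻¹) * mkP A))
    (HU : ∀ Y : SL(2, F), inK H (mkP A) (mkP Y) → NC Y → tr Y ^ 2 ≠ 4) :
    ∀ g, inK H (mkP A) g → g * mkP A = mkP A * g := by
  intro g hg
  obtain ⟨W, rfl⟩ := mkP_surjective g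
  have hρ0 : ρ ≠ 0 := by
    rintro rfl
    apply h2
    rw [← hρ]
    ring
  have hdet := det_entries A
  have ht : A.1 0 0 + A.1 1 1 = 0 := htr
  have hAA : A * A = -1 := (mul_self_eq_neg_one_iff A).2 htr
  have hinvA : A⁻¹ = -A := inv_eq_neg_of_tr htr
  have hNA : NC A := nc_of_tr_zero h2 htr
  have hdA : disc A ≠ 0 := disc_of_tr_zero h2 htr
  -- the element `u`
  have hdetu : ((1 + A.1 0 0) / ρ) * ((1 + A.1 1 1) / ρ) - (A.1 0 1 / ρ) * (A.1 1 0 / ρ) = 1 := by
    field_simp
    linear_combination hdet + ht - hρ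
  let U : SL(2, F) := sl2 _ _ _ _ hdetu
  have hUA : U * A = A * U := by
    apply ext2 <;> simp only [U, mul_00, mul_01, mul_10, mul_11, sl2_00, sl2_01, sl2_10, sl2_11] <;> field_simp <;> ring
  have hUU : U * U = A := by
    apply ext2 <;> simp only [U, mul_00, mul_01, mul_10, mul_11, sl2_00, sl2_01, sl2_10, sl2_11] <;> field_simp <;> grind
  have htrU : tr U ≠ 0 := by
    have : tr U = 2 / ρ := by
      simp only [tr, U, sl2_00, sl2_11]
      field_simp
      linear_combination ht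
    rw [this]
    exact div_ne_zero h2 hρ0
  set a : PSL(2, F) := mkP A with ha
  set E : SL(2, F) := W * A * W⁻¹ with hE
  have hEP : mkP E = mkP W * a * (mkP W)⁻¹ := by
    rw [hE, map_mul, map_mul, map_inv]
  have htrE : tr E = 0 := by rw [hE, tr_conj, htr]
  by_cases he : mkP E = a
  · rw [hEP, mul_inv_eq_iff_eq_mul] at he
    exact he
  exfalso
  have hNE : NC E := nc_of_tr_zero h2 htrE
  have hu : mkP U * a = a * mkP U := by
    rw [ha, ← map_mul, ← map_mul, hUA]
  have hw' : inK H a (mkP U * mkP W * (mkP U)⁻¹) := inK_conj_of_commute hg hu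
  set Y : SL(2, F) := E * A with hY
  have hYK : inK H a (mkP Y) := by
    have h1 : mkP Y = (mkP W * a * (mkP W)⁻¹) * a := by rw [hY, map_mul, hEP]
    rw [h1]
    have hs := self_mem_Ksub H a
    exact (Ksub H a).mul_mem ((Ksub H a).mul_mem ((Ksub H a).mul_mem hg hs) ((Ksub H a).inv_mem hg)) hs
  have hYNC : NC Y := by
    constructor
    · intro e
      apply he
      have h1 : E = A⁻¹ := eq_inv_of_mul_eq_one_left e
      rw [h1, hinvA, mkP_neg]
    · intro e
      apply he
      have h1 : E = -A⁻¹ := by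
        have h3 : E * A * A⁻¹ = -A⁻¹ := by rw [← hY, e, neg_mul, one_mul]
        simpa using h3
      rw [h1, mkP_neg, hinvA, mkP_neg]
  have hYτ := HU Y hYK hYNC
  have hdY : disc Y ≠ 0 := by
    unfold disc
    intro h
    exact hYτ (by linear_combination h)
  set Y₁ : SL(2, F) := U * Y * U⁻¹ with hY₁
  have htrY₁ : tr Y₁ = tr Y := tr_conj _ _
  have hNY₁ : NC Y₁ := nc_of_tr (by rw [htrY₁]; exact hYτ)
  have hUEU : mkP (U * E * U⁻¹) = (mkP U * mkP W * (mkP U)⁻¹) * a * (mkP U * mkP W * (mkP U)⁻¹)⁻¹ := by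
    have h3 : (mkP U)⁻¹ * a * mkP U = a := by
      rw [mul_assoc, ← hu]
      simp
    rw [map_mul, map_mul, map_inv, hEP]
    calc mkP U * (mkP W * a * (mkP W)⁻¹) * (mkP U)⁻¹
        = mkP U * mkP W * a * (mkP W)⁻¹ * (mkP U)⁻¹ := by group
      _ = mkP U * mkP W * ((mkP U)⁻¹ * a * mkP U) * (mkP W)⁻¹ * (mkP U)⁻¹ := by rw [h3]
      _ = _ := by group
  have hY₁P : mkP Y₁ = ((mkP U * mkP W * (mkP U)⁻¹) * a * (mkP U * mkP W * (mkP U)⁻¹)⁻¹) * a := by
    rw [← hUEU, hY₁, hY, ha, ← map_mul]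
    congr 1
    have h5 : U⁻¹ * A = A * U⁻¹ := (show Commute U A from hUA).inv_left
    calc U * (E * A) * U⁻¹ = U * E * (A * U⁻¹) := by group
      _ = U * E * (U⁻¹ * A) := by rw [h5]
      _ = _ := by group
  have hcomm := HC _ _ hg hw'
  have hYP : mkP Y = (mkP W * a * (mkP W)⁻¹) * a := by rw [hY, map_mul, hEP]
  rw [← hYP, ← hY₁P, ← map_mul, ← map_mul, mkP_eq_iff] at hcomm
  rcases hcomm with hc | hc
  · rcases eq_or_eq_inv_of_commute hYNC hdY htrY₁ hNY₁ hc.symm with e | e
    · -- `U` commutes with `Y`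
      have h3 : U * Y = Y * U := by
        rw [hY₁, mul_inv_eq_iff_eq_mul] at e
        exact e
      have h4 : A * Y = Y * A := by
        calc A * Y = U * U * Y := by rw [hUU]
          _ = U * (U * Y) := mul_assoc _ _ _
          _ = U * (Y * U) := by rw [h3]
          _ = (U * Y) * U := (mul_assoc _ _ _).symm
          _ = (Y * U) * U := by rw [h3]
          _ = Y * (U * U) := mul_assoc _ _ _
          _ = Y * A := by rw [hUU]
      have h5 : A * E = E * A := by
        have h6 : A * E * A = E * A * A := by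
          calc A * E * A = A * Y := by rw [hY, mul_assoc]
            _ = Y * A := h4
            _ = E * A * A := by rw [hY]
        exact mul_right_cancel h6
      rcases eq_or_eq_inv_of_commute hNA hdA (htrE.trans htr.symm) hNE h5 with e2 | e2
      · exact he (by rw [e2])
      · exact he (by rw [e2, hinvA, mkP_neg])
    · exact htrU (Cfsg.Agent.Lib.PSL2.TorusCore.tr_eq_zero_of_inverts hYNC e)
  · -- anticommuting case
    have hYtr : tr Y = 0 := by
      have h3 : Y₁ * Y * Y₁⁻¹ = -Y := by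
        rw [hc, neg_mul, mul_assoc]
        simp
      have h4 := tr_conj Y₁ Y
      rw [h3, tr_neg] at h4
      have h5 : 2 * tr Y = 0 := by linear_combination -h4
      exact (mul_eq_zero.1 h5).resolve_left h2
    have hdE := det_entries E
    have htE : E.1 0 0 + E.1 1 1 = 0 := htrE
    have htY : (E * A).1 0 0 + (E * A).1 1 1 = 0 := hYtr
    simp only [mul_00, mul_11] at htY
    have hanti : U * E = -(E * A) * U := by
      apply ext2 <;>
      · simp only [U, mul_00, mul_01, mul_10, mul_11, sl2_00, sl2_01, sl2_10, sl2_11, neg_00, neg_01, neg_10, neg_11]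
        field_simp
        grind
    have h5 : mkP (U * E * U⁻¹) = mkP E * a := by
      have h6 : U * E * U⁻¹ = -(E * A) := by
        rw [hanti]
        simp
      rw [h6, mkP_neg, map_mul]
    rw [hUEU, hEP] at h5
    exact HP _ _ hg hw' h5

end Cfsg.Agent.Lib.Binary.Small
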