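import Cfsg.Agent.Lib.Binary.Small
import Cfsg.Agent.Lib.PSL2.TraceOrder

/-!
# Binary actions of `PSL(2, F)`: dihedral and octahedral stabilisers when `2` is a square,
and the tetrahedral stabiliser for `q = 7`
-/

set_option autoImplicit false
set_option linter.style.longLine false
set_option linter.style.haveILetI false
set_option linter.unusedSectionVars false
set_option linter.unusedVariables false
set_option linter.style.multiGoal false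
set_option linter.unusedSimpArgs false
set_option linter.unnecessarySeqFocus false
set_option linter.unusedDecidableInType false
set_option linter.unusedFintypeInType false

namespace Cfsg.Agent.Lib.Binary.Small2

open Matrix Matrix.SpecialLinearGroup Subgroup
open scoped MatrixGroups
open Cfsg.Agent.Lib.PSL2.Basic Cfsg.Agent.Lib.PSL2.Conj Cfsg.Agent.Lib.PSL2.Members
open Cfsg.Agent.Lib.PSL2.FourGroup
open Cfsg.Agent.Lib.PSL2.KleinPairs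
open Cfsg.Agent.Lib.PSL2.Torus (mul_self_eq_neg_one_iff)
open Cfsg.Agent.Lib.PSL2.TraceZero (exists_conj_of_tr_eq_zero)
open Cfsg.Agent.Lib.PSL2.Unipotent (orderOf_eq_char_iff)
open Cfsg.Agent.Lib.Binary.Core Cfsg.Agent.Lib.Binary.Uni Cfsg.Agent.Lib.Binary.Cyc
open Cfsg.Agent.Lib.Binary.Inv Cfsg.Agent.Lib.Binary.Small

section Role

variable {G : Type*} [Group G] {H : Subgroup G} {L : Type*} [Group L]

lemma role_P (ψ : H ≃* L) {x₀ a : G} (ha : x₀⁻¹ * a * x₀ ∈ H)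
    (P : ∀ g₁ g₂ : L, g₂ * ψ ⟨_, ha⟩ * g₂⁻¹ ≠ (g₁ * ψ ⟨_, ha⟩ * g₁⁻¹) * ψ ⟨_, ha⟩) {w₁ w₂ : G}
    (h₁ : x₀⁻¹ * w₁ * x₀ ∈ H) (h₂ : x₀⁻¹ * w₂ * x₀ ∈ H) : w₂ * a * w₂⁻¹ ≠ (w₁ * a * w₁⁻¹) * a := by
  intro e
  apply P (ψ ⟨_, h₁⟩) (ψ ⟨_, h₂⟩)
  simp only [← map_mul, ← map_inv]
  congr 1
  apply Subtype.ext
  simp only [Subgroup.coe_mul, Subgroup.coe_inv]
  calc (x₀⁻¹ * w₂ * x₀) * (x₀⁻¹ * a * x₀) * (x₀⁻¹ * w₂ * x₀)⁻¹ = x₀⁻¹ * (w₂ * a * w₂⁻¹) * x₀ := by group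
    _ = x₀⁻¹ * ((w₁ * a * w₁⁻¹) * a) * x₀ := by rw [e]
    _ = _ := by group

lemma role_C (ψ : H ≃* L) {x₀ a : G} (ha : x₀⁻¹ * a * x₀ ∈ H)
    (P : ∀ g₁ g₂ : L, ((g₁ * ψ ⟨_, ha⟩ * g₁⁻¹) * ψ ⟨_, ha⟩) * ((g₂ * ψ ⟨_, ha⟩ * g₂⁻¹) * ψ ⟨_, ha⟩) =
      ((g₂ * ψ ⟨_, ha⟩ * g₂⁻¹) * ψ ⟨_, ha⟩) * ((g₁ * ψ ⟨_, ha⟩ * g₁⁻¹) * ψ ⟨_, ha⟩)) {w₁ w₂ : G}
    (h₁ : x₀⁻¹ * w₁ * x₀ ∈ H) (h₂ : x₀⁻¹ * w₂ * x₀ ∈ H) :
    ((w₁ * a * w₁⁻¹) * a) * ((w₂ * a * w₂⁻¹) * a) = ((w₂ * a * w₂⁻¹) * a) * ((w₁ * a * w₁⁻¹) * a) := by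
  have h := P (ψ ⟨_, h₁⟩) (ψ ⟨_, h₂⟩)
  simp only [← map_mul, ← map_inv] at h
  have h3 := congrArg Subtype.val (ψ.injective h)
  simp only [Subgroup.coe_mul, Subgroup.coe_inv] at h3
  have h4 : x₀⁻¹ * (((w₁ * a * w₁⁻¹) * a) * ((w₂ * a * w₂⁻¹) * a)) * x₀ =
      x₀⁻¹ * (((w₂ * a * w₂⁻¹) * a) * ((w₁ * a * w₁⁻¹) * a)) * x₀ := by
    calc _ = (x₀⁻¹ * w₁ * x₀) * (x₀⁻¹ * a * x₀) * (x₀⁻¹ * w₁ * x₀)⁻¹ * (x₀⁻¹ * a * x₀) *
          ((x₀⁻¹ * w₂ * x₀) * (x₀⁻¹ * a * x₀) * (x₀⁻¹ * w₂ * x₀)⁻¹ * (x₀⁻¹ * a * x₀)) := by group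
      _ = _ := h3
      _ = _ := by group
  exact mul_left_cancel (mul_right_cancel h4)

end Role

section Dih

open DihedralGroup

variable {k : ℕ}

lemma dih_refl (g : DihedralGroup k) (i : ZMod k) : ∃ m, g * sr i * g⁻¹ = sr m := by
  rcases g with j | j
  · exact ⟨_, by simp [DihedralGroup.inv_r]; rfl⟩
  · exact ⟨_, by simp [DihedralGroup.inv_sr]; rfl⟩

lemma dih_P (g₁ g₂ : DihedralGroup k) :
    g₂ * sr 0 * g₂⁻¹ ≠ (g₁ * sr 0 * g₁⁻¹) * sr (0 : ZMod k) := by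
  obtain ⟨m₁, h₁⟩ := dih_refl g₁ 0
  obtain ⟨m₂, h₂⟩ := dih_refl g₂ 0
  rw [h₁, h₂]
  simp

lemma dih_C (g₁ g₂ : DihedralGroup k) :
    ((g₁ * sr 0 * g₁⁻¹) * sr 0) * ((g₂ * sr 0 * g₂⁻¹) * sr (0 : ZMod k)) =
      ((g₂ * sr 0 * g₂⁻¹) * sr 0) * ((g₁ * sr 0 * g₁⁻¹) * sr 0) := by
  obtain ⟨m₁, h₁⟩ := dih_refl g₁ 0
  obtain ⟨m₂, h₂⟩ := dih_refl g₂ 0
  rw [h₁, h₂]
  simp only [sr_mul_sr, r_mul_r, add_comm]

lemma zmod_half [NeZero k] {i : ZMod k} (h : i + i = 0) (hi : i ≠ 0) : i = ((k / 2 : ℕ) : ZMod k) := by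
  have h1 : ((i.val + i.val : ℕ) : ZMod k) = 0 := by
    push_cast
    rw [ZMod.natCast_zmod_val]
    exact h
  rw [ZMod.natCast_eq_zero_iff] at h1
  have h2 : 0 < i.val := by
    rw [Nat.pos_iff_ne_zero]
    intro e
    exact hi ((ZMod.val_eq_zero i).1 e)
  have h3 : i.val < k := ZMod.val_lt i
  obtain ⟨c, hc⟩ := h1
  have hc1 : c = 1 := by
    have h4 : k * c < k * 2 := by omega
    have h5 : c < 2 := lt_of_mul_lt_mul_left h4 (Nat.zero_le _)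
    have h6 : c ≠ 0 := by
      rintro rfl
      omega
    omega
  subst hc1
  have h7 : i.val = k / 2 := by omega
  rw [← h7, ZMod.natCast_zmod_val]

lemma dih_few [NeZero k] (x : DihedralGroup k) (h1 : x * x = 1) (h2 : x * sr 0 = sr 0 * x)
    (h3 : x ≠ 1) (h4 : x ≠ sr 0) :
    x = r ((k / 2 : ℕ) : ZMod k) ∨ x = sr ((k / 2 : ℕ) : ZMod k) := by
  rcases x with i | i
  · left
    congr 1
    apply zmod_half
    · simp only [r_mul_r, one_def] at h1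
      exact r.inj h1
    · rintro rfl
      exact h3 rfl
  · right
    congr 1
    apply zmod_half
    · simp only [sr_mul_sr] at h2
      have h5 := r.inj h2
      linear_combination -h5
    · rintro rfl
      exact h4 rfl

end Dih

section S4

lemma s4_P (g₁ g₂ : Equiv.Perm (Fin 4)) :
    g₂ * Equiv.swap 0 1 * g₂⁻¹ ≠ (g₁ * Equiv.swap 0 1 * g₁⁻¹) * Equiv.swap (0 : Fin 4) 1 := by
  intro e
  have h := congrArg Equiv.Perm.sign e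
  have hs : Equiv.Perm.sign (Equiv.swap (0 : Fin 4) 1) = -1 := Equiv.Perm.sign_swap (by decide)
  simp only [map_mul, map_inv, hs] at h
  have h5 : ∀ u v : ℤˣ, u * (-1) * u⁻¹ ≠ v * (-1) * v⁻¹ * (-1) := by decide
  exact h5 _ _ h

lemma s4_C (g₁ g₂ : Equiv.Perm (Fin 4)) :
    ((g₁ * (Equiv.swap 0 1 * Equiv.swap 2 3) * g₁⁻¹) * (Equiv.swap 0 1 * Equiv.swap 2 3)) *
      ((g₂ * (Equiv.swap 0 1 * Equiv.swap 2 3) * g₂⁻¹) * (Equiv.swap 0 1 * Equiv.swap (2 : Fin 4) 3)) =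
    ((g₂ * (Equiv.swap 0 1 * Equiv.swap 2 3) * g₂⁻¹) * (Equiv.swap 0 1 * Equiv.swap 2 3)) *
      ((g₁ * (Equiv.swap 0 1 * Equiv.swap 2 3) * g₁⁻¹) * (Equiv.swap 0 1 * Equiv.swap (2 : Fin 4) 3)) := by
  revert g₁ g₂
  decide +kernel

end S4

variable {F : Type*} [Field F] [Fintype F]

lemma tr_sq_ne_of_coprime (p : ℕ) [hp : Fact p.Prime] [CharP F p] {H : Subgroup PSL(2, F)}
    (hcop : ¬ p ∣ Nat.card H) {A : SL(2, F)} (hA : mkP A ∈ H) (hNC : NC A) : tr A ^ 2 ≠ 4 := by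
  intro h
  have h3 : (tr A - 2) * (tr A + 2) = 0 := by linear_combination h
  have key : ∀ B : SL(2, F), mkP B ∈ H → NC B → tr B = 2 → False := by
    intro B hB hNB htB
    have h5 := (orderOf_eq_char_iff p B).2 ⟨htB, hNB.1⟩
    have h6 : (⟨mkP B, hB⟩ : H) ^ p = 1 := by
      apply Subtype.ext
      show mkP B ^ p = 1
      rw [← map_pow, ← h5, pow_orderOf_eq_one, map_one]
    have h7 : orderOf (⟨mkP B, hB⟩ : H) = p := by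
      apply orderOf_eq_prime h6
      intro e
      exact mkP_ne_one hNB (congrArg Subtype.val e)
    apply hcop
    rw [← h7]
    exact orderOf_dvd_natCard _
  rcases mul_eq_zero.1 h3 with h4 | h4
  · exact key A hA hNC (by linear_combination h4)
  · refine key (-A) (by rwa [mkP_neg]) ⟨?_, ?_⟩ (by rw [tr_neg]; linear_combination -h4)
    · intro e
      apply hNC.2
      rw [← neg_neg A, e]
    · intro e
      exact hNC.1 (neg_injective e)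

/-- A prescribed role for an involution. -/
lemma role (h2 : (2 : F) ≠ 0) {H : Subgroup PSL(2, F)} {L : Type*} [Group L] (ψ : H ≃* L) {ℓ : L}
    (hℓ1 : ℓ ≠ 1) (hℓ2 : ℓ * ℓ = 1) {A : SL(2, F)} (htr : tr A = 0) :
    ∃ (x₀ : PSL(2, F)) (ha : x₀⁻¹ * mkP A * x₀ ∈ H), ψ ⟨_, ha⟩ = ℓ := by
  obtain ⟨C, hC⟩ := mkP_surjective (ψ.symm ℓ).1
  have hCH : mkP C ∈ H := by rw [hC]; exact (ψ.symm ℓ).2
  have hψC : ψ ⟨mkP C, hCH⟩ = ℓ := by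
    have : (⟨mkP C, hCH⟩ : H) = ψ.symm ℓ := Subtype.ext hC
    rw [this]
    simp
  have h1 : mkP C ≠ 1 := by
    intro e
    apply hℓ1
    rw [← hψC]
    have : (⟨mkP C, hCH⟩ : H) = 1 := Subtype.ext e
    rw [this, map_one]
  have h3 : mkP C * mkP C = 1 := by
    have : (⟨mkP C, hCH⟩ : H) * ⟨mkP C, hCH⟩ = 1 := by
      apply ψ.injective
      rw [map_mul, hψC, hℓ2, map_one]
    exact congrArg Subtype.val this
  have htrC := tr_zero_of_invol h2 h1 h3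
  obtain ⟨g, hg⟩ := exists_conj_of_tr_eq_zero h2 A C htr htrC
  have h5 : ((mkP g)⁻¹)⁻¹ * mkP A * (mkP g)⁻¹ = mkP C := by
    rw [← hg, inv_inv, map_mul, map_mul, map_inv]
  refine ⟨(mkP g)⁻¹, h5 ▸ hCH, ?_⟩
  rw [← hψC]
  congr 1
  exact Subtype.ext h5

lemma hu_of_coprime (p : ℕ) [hp : Fact p.Prime] [CharP F p] {H : Subgroup PSL(2, F)}
    (hcop : ¬ p ∣ Nat.card H) {x₀ s : PSL(2, F)} (ha : x₀⁻¹ * s * x₀ ∈ H) :
    ∀ Y : SL(2, F), inK H s (mkP Y) → NC Y → tr Y ^ 2 ≠ 4 := by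
  intro Y hY hN
  obtain ⟨X, rfl⟩ := mkP_surjective x₀
  have h1 := hY _ ha
  rw [← map_inv, ← map_mul, ← map_mul] at h1
  have hN' : NC (X⁻¹ * Y * X) := by
    constructor
    · intro e
      apply hN.1
      have : Y = X * (X⁻¹ * Y * X) * X⁻¹ := by group
      rw [this, e]
      group
    · intro e
      apply hN.2
      have : Y = X * (X⁻¹ * Y * X) * X⁻¹ := by group
      rw [this, e, mul_neg, neg_mul]
      simp
  have h3 := tr_sq_ne_of_coprime p hcop h1 hN'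
  have h4 : tr (X⁻¹ * Y * X) = tr Y := by
    have := tr_conj X⁻¹ Y
    rwa [inv_inv] at this
  rwa [h4] at h3

/-- Dihedral stabilisers when `2` is a square. -/
theorem kc_dih (p : ℕ) [hp : Fact p.Prime] [CharP F p] (h2 : (2 : F) ≠ 0) {ρ : F} (hρ : ρ ^ 2 = 2)
    {H : Subgroup PSL(2, F)} (hcop : ¬ p ∣ Nat.card H) {k : ℕ} (ψ : H ≃* DihedralGroup k)
    {A : SL(2, F)} (htr : tr A = 0) : ∀ g, inK H (mkP A) g → g * mkP A = mkP A * g := by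
  obtain ⟨x₀, ha, hψ⟩ := role h2 ψ (ℓ := DihedralGroup.sr 0)
    (by intro h; rw [DihedralGroup.one_def] at h; cases h) (by simp) htr
  refine kc_small h2 hρ htr ?_ ?_ (hu_of_coprime p hcop ha)
  · intro w₁ w₂ h₁ h₂
    refine role_P ψ ha ?_ (h₁ x₀ ha) (h₂ x₀ ha)
    rw [hψ]
    exact dih_P
  · intro w₁ w₂ h₁ h₂
    refine role_C ψ ha ?_ (h₁ x₀ ha) (h₂ x₀ ha)
    rw [hψ]
    exact dih_C

/-- Octahedral stabilisers when `2` is a square. -/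
theorem kc_s4 (p : ℕ) [hp : Fact p.Prime] [CharP F p] (h2 : (2 : F) ≠ 0) {ρ : F} (hρ : ρ ^ 2 = 2)
    {H : Subgroup PSL(2, F)} (hcop : ¬ p ∣ Nat.card H) (ψ : H ≃* Equiv.Perm (Fin 4))
    {A : SL(2, F)} (htr : tr A = 0) : ∀ g, inK H (mkP A) g → g * mkP A = mkP A * g := by
  obtain ⟨x₀, ha, hψ⟩ := role h2 ψ (ℓ := Equiv.swap 0 1) (by decide) (by decide) htr
  obtain ⟨x₁, hb, hψ'⟩ := role h2 ψ (ℓ := Equiv.swap 0 1 * Equiv.swap 2 3) (by decide) (by decide) htr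
  refine kc_small h2 hρ htr ?_ ?_ (hu_of_coprime p hcop ha)
  · intro w₁ w₂ h₁ h₂
    refine role_P ψ ha ?_ (h₁ x₀ ha) (h₂ x₀ ha)
    rw [hψ]
    exact s4_P
  · intro w₁ w₂ h₁ h₂
    refine role_C ψ hb ?_ (h₁ x₁ hb) (h₂ x₁ hb)
    rw [hψ']
    exact s4_C

end Cfsg.Agent.Lib.Binary.Small2
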