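import Cfsg.Agent.Lib.Binary.Core
import Cfsg.Agent.Lib.PSL2.BorelMax
import Cfsg.Agent.Lib.PSL2.Macbeath
import Cfsg.Agent.Lib.PSL2.Unipotent

/-!
# Binary actions of `PSL(2, F)`: exact centralisers and the unipotent triples
-/

set_option autoImplicit false
set_option linter.style.longLine false
set_option linter.style.haveILetI false
set_option linter.unusedSectionVars false
set_option linter.unusedVariables false
set_option linter.style.multiGoal false
set_option linter.unusedSimpArgs false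

namespace Cfsg.Agent.Lib.Binary.Uni

open Matrix Matrix.SpecialLinearGroup Subgroup
open scoped MatrixGroups
open Cfsg.Agent.Lib.PSL2.Basic Cfsg.Agent.Lib.PSL2.Conj Cfsg.Agent.Lib.PSL2.Members
open Cfsg.Agent.Lib.PSL2.BorelMax Cfsg.Agent.Lib.PSL2.Unipotent
open Cfsg.Agent.Lib.Binary.Core

variable {F : Type*} [Field F] [Fintype F]

/-- All elements fixing the cosets fixed by `mkP S` have a lift commuting with `S`. -/
def KEx (H : Subgroup PSL(2, F)) (S : SL(2, F)) : Prop :=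
  ∀ g, inK H (mkP S) g → ∃ G' : SL(2, F), mkP G' = g ∧ G' * S = S * G'

lemma KEx.conj {H : Subgroup PSL(2, F)} {S : SL(2, F)} (h : KEx H S) (A : SL(2, F)) :
    KEx H (A * S * A⁻¹) := by
  intro g hg
  have h1 : inK H (mkP S) ((mkP A)⁻¹ * g * mkP A) := by
    apply inK_conj
    simpa [map_mul, map_inv] using hg
  obtain ⟨G', hG', hc⟩ := h _ h1
  refine ⟨A * G' * A⁻¹, ?_, ?_⟩
  · rw [map_mul, map_mul, map_inv, hG']; group
  · calc A * G' * A⁻¹ * (A * S * A⁻¹) = A * (G' * S) * A⁻¹ := by group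
      _ = A * (S * G') * A⁻¹ := by rw [hc]
      _ = _ := by group

lemma KEx.neg {H : Subgroup PSL(2, F)} {S : SL(2, F)} (h : KEx H S) : KEx H (-S) := by
  intro g hg
  rw [mkP_neg] at hg
  obtain ⟨G', hG', hc⟩ := h _ hg
  exact ⟨G', hG', by rw [mul_neg, neg_mul, hc]⟩

/-- The main contradiction. -/
theorem pair_contra {H : Subgroup PSL(2, F)} (hC : Crit H) {S₁ S₂ : SL(2, F)} (h1 : KEx H S₁)
    (h2 : KEx H S₂) (hmem : mkP (S₁⁻¹ * S₂) ∈ H) (hnc : S₁ * S₂ ≠ S₂ * S₁) (hS : mkP S₁ ∉ H) :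
    False := by
  obtain ⟨g, hg, hK⟩ := hC (mkP S₁)
  have k1 := hK (mkP S₁) (by simp [H.one_mem])
  have k2 := hK (mkP S₂) (by rw [← map_inv, ← map_mul]; exact hmem)
  obtain ⟨G₁, e1, c1⟩ := h1 g k1
  obtain ⟨G₂, e2, c2⟩ := h2 g k2
  have c3 : G₁ * S₂ = S₂ * G₁ := by
    rcases mkP_eq_iff.1 (e1.trans e2.symm) with rfl | rfl
    · exact c2
    · rw [neg_mul, mul_neg] at c2
      exact neg_injective c2
  by_cases hNC : G₁ = 1 ∨ G₁ = -1
  · have hg1 : g = 1 := by rw [← e1]; exact mkP_eq_one_iff.2 hNC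
    subst hg1
    apply hS
    simpa using H.inv_mem hg
  · push Not at hNC
    exact hnc (commute_of_commute ⟨hNC.1, hNC.2⟩ c1 c3)

lemma mkP_x_inv (t : F) : (mkP (x t))⁻¹ = mkP (x (-t)) := by
  rw [← map_inv, x_inv]

lemma mkP_x_mul (s t : F) : mkP (x s) * mkP (x t) = mkP (x (s + t)) := by
  rw [← map_mul, x_add]

lemma mkP_x_comm (s t : F) : mkP (x s) * mkP (x t) = mkP (x t) * mkP (x s) := by
  rw [← map_mul, ← map_mul, x_commute]

/-- A subgroup stable under the root group and containing a lower entry is everything. -/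
theorem top_of_x_stable (h4 : 4 ≤ Fintype.card F) {L : Subgroup PSL(2, F)}
    (hst : ∀ t : F, ∀ ℓ ∈ L, mkP (x t) * ℓ * (mkP (x t))⁻¹ ∈ L)
    {Z : SL(2, F)} (hZ : mkP Z ∈ L) (hc : Z.1 1 0 ≠ 0) : L = ⊤ := by
  have hn : normalizer (L : Set PSL(2, F)) = ⊤ := by
    apply eq_top_of_x_lower (Z := Z) ?_ (le_normalizer hZ) hc
    intro t
    rw [mem_normalizer_iff]
    intro ℓ
    constructor
    · exact hst t ℓ
    · intro h
      have h1 := hst (-t) _ h
      have h3 : mkP (x (-t)) * mkP (x t) = 1 := by rw [mkP_x_mul]; simp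
      have h2 : mkP (x (-t)) * (mkP (x t) * ℓ * (mkP (x t))⁻¹) * (mkP (x (-t)))⁻¹ = ℓ := by
        calc _ = (mkP (x (-t)) * mkP (x t)) * ℓ * (mkP (x (-t)) * mkP (x t))⁻¹ := by group
          _ = ℓ := by rw [h3]; simp
      rwa [h2] at h1
  have hnormal : L.Normal := normalizer_eq_top_iff.1 hn
  haveI : IsSimpleGroup PSL(2, F) :=
    Matrix.ProjectiveSpecialLinearGroup.rank_two_simple (by rw [Nat.card_eq_fintype_card]; omega)
  rcases IsSimpleGroup.eq_bot_or_eq_top_of_normal L hnormal with h | h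
  · exfalso
    rw [h, mem_bot, mkP_eq_one_iff] at hZ
    rcases hZ with rfl | rfl
    · simp at hc
    · simp at hc
  · exact h

/-- `H` contains no full root group. -/
def NoRoot (H : Subgroup PSL(2, F)) : Prop := ∀ a : PSL(2, F), ¬ ∀ t : F, a * mkP (x t) * a⁻¹ ∈ H

/-- Lemma U. -/
theorem kex_x (h4 : 4 ≤ Fintype.card F) {H : Subgroup PSL(2, F)} (hH : H ≠ ⊤) (hR : NoRoot H)
    {t : F} (ht : t ≠ 0) (hconj : ∃ x₀ : PSL(2, F), x₀⁻¹ * mkP (x t) * x₀ ∈ H) : KEx H (x t) := by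
  intro g hg
  obtain ⟨x₀, hx₀⟩ := hconj
  have hAx : ∀ y ∈ Ksub H (mkP (x t)), x₀⁻¹ * y * x₀ ∈ H := fun y hy => hy x₀ hx₀
  have hst : ∀ z : F, ∀ ℓ ∈ Ksub H (mkP (x t)), mkP (x z) * ℓ * (mkP (x z))⁻¹ ∈ Ksub H (mkP (x t)) :=
    fun z ℓ hℓ => inK_conj_of_commute hℓ (mkP_x_comm z t)
  have hAne : Ksub H (mkP (x t)) ≠ ⊤ := by
    intro h
    apply hH
    rw [eq_top_iff]
    intro y _
    have := hAx (x₀ * y * x₀⁻¹) (h ▸ mem_top _)
    have h2 : x₀⁻¹ * (x₀ * y * x₀⁻¹) * x₀ = y := by group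
    rwa [h2] at this
  obtain ⟨Z, rfl⟩ := mkP_surjective g
  have hZ0 : Z.1 1 0 = 0 := by
    by_contra hc
    exact hAne (top_of_x_stable h4 hst hg hc)
  obtain ⟨a, ha, b₀, rfl⟩ := eq_b_of_10 Z hZ0
  have haa : a ^ 2 = 1 := by
    by_contra hne
    apply hR x₀⁻¹
    intro t'
    have hsub : 1 - a ^ 2 ≠ 0 := fun e => hne (by linear_combination -e)
    have key : ∀ z : F, mkP (x ((1 - a ^ 2) * z)) ∈ Ksub H (mkP (x t)) := by
      intro z
      have h1 := (Ksub H (mkP (x t))).mul_mem (hst z _ hg) ((Ksub H (mkP (x t))).inv_mem hg)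
      have h2 : x z * b a ha b₀ * (x z)⁻¹ * (b a ha b₀)⁻¹ = x ((1 - a ^ 2) * z) := by
        apply ext2 <;> simp [x_inv] <;> field_simp <;> ring
      rw [← h2]
      simpa [map_mul, map_inv] using h1
    have h3 := hAx _ (key ((1 - a ^ 2)⁻¹ * t'))
    rw [show (1 - a ^ 2) * ((1 - a ^ 2)⁻¹ * t') = t' by field_simp] at h3
    simpa using h3
  have hcases : a = 1 ∨ a = -1 := by
    have : (a - 1) * (a + 1) = 0 := by linear_combination haa
    rcases mul_eq_zero.1 this with h | h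
    · left; linear_combination h
    · right; linear_combination h
  rcases hcases with rfl | rfl
  · refine ⟨x b₀, ?_, x_commute _ _⟩
    congr 1
    apply ext2 <;> simp
  · refine ⟨x (-b₀), ?_, x_commute _ _⟩
    apply mkP_eq_iff.2
    right
    apply ext2 <;> simp

theorem kex_x_Ubar (t : F) : KEx (Ubar F) (x t) := by
  intro g hg
  have h1 := hg 1 (by simpa using x_mem_Ubar t)
  have h2 : g ∈ Ubar F := by simpa using h1
  obtain ⟨W, ⟨z, rfl⟩, rfl⟩ := h2
  exact ⟨x z, rfl, x_commute _ _⟩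

/-- The `x`-core of `H`. -/
def Lx (H : Subgroup PSL(2, F)) : Subgroup PSL(2, F) where
  carrier := {ℓ | ∀ z : F, mkP (x z) * ℓ * (mkP (x z))⁻¹ ∈ H}
  mul_mem' := by
    intro a b ha hb z
    have := H.mul_mem (ha z) (hb z)
    rwa [show mkP (x z) * a * (mkP (x z))⁻¹ * (mkP (x z) * b * (mkP (x z))⁻¹) =
      mkP (x z) * (a * b) * (mkP (x z))⁻¹ by group] at this
  one_mem' := by
    intro z
    simp
  inv_mem' := by
    intro a ha z
    have := H.inv_mem (ha z)
    rwa [show (mkP (x z) * a * (mkP (x z))⁻¹)⁻¹ = mkP (x z) * a⁻¹ * (mkP (x z))⁻¹ by group] at this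

/-- The odd unipotent triple. -/
theorem P_odd (h4 : 4 ≤ Fintype.card F) (h2 : (2 : F) ≠ 0) {H : Subgroup PSL(2, F)} (hC : Crit H)
    (hH : H ≠ ⊤) {e : F} (he : e ≠ 0) (heH : mkP (x e) ∈ H)
    (hK : ∀ t : F, t ≠ 0 → (∃ x₀ : PSL(2, F), x₀⁻¹ * mkP (x t) * x₀ ∈ H) → KEx H (x t)) : False := by
  have h4' : (4 : F) ≠ 0 := by
    have : (4 : F) = 2 * 2 := by norm_num
    rw [this]
    exact mul_ne_zero h2 h2
  set y₀ : F := -4 / e with hy₀
  have hy₀0 : y₀ ≠ 0 := by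
    rw [hy₀]
    exact div_ne_zero (neg_ne_zero.2 h4') he
  have hK1 : KEx H (y y₀) := by
    have h3 : w * x (4 / e) * w⁻¹ = y y₀ := by
      rw [w_x_w_inv, hy₀]
      congr 1
      ring
    rw [← h3]
    apply KEx.conj
    apply hK _ (div_ne_zero h4' he)
    have ha : e / 2 ≠ 0 := div_ne_zero he h2
    refine ⟨(mkP (d (e / 2) ha))⁻¹, ?_⟩
    rw [inv_inv, ← map_inv, ← map_mul, ← map_mul, d_x_d_inv]
    convert heH using 3
    field_simp
    ring
  have hK2 : KEx H (-(y y₀ * x e)) := by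
    have h3 : y (-2 / e) * x (-e) * (y (-2 / e))⁻¹ = -(y y₀ * x e) := by
      apply ext2 <;> simp [y_inv, hy₀] <;> field_simp <;> ring
    rw [← h3]
    apply KEx.conj
    apply hK _ (neg_ne_zero.2 he)
    refine ⟨1, ?_⟩
    simp only [inv_one, one_mul, mul_one]
    rw [← mkP_x_inv]
    exact H.inv_mem heH
  obtain ⟨z, hz⟩ : ∃ z : F, mkP (x z * y y₀ * (x z)⁻¹) ∉ H := by
    by_contra hall
    push Not at hall
    have hLtop : Lx H = ⊤ := by
      refine top_of_x_stable h4 ?_ (Z := y y₀) ?_ (by simpa using hy₀0)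
      · intro t ℓ hℓ u
        have := hℓ (u + t)
        rw [← mkP_x_mul, _root_.mul_inv_rev] at this
        rwa [show mkP (x u) * (mkP (x t) * ℓ * (mkP (x t))⁻¹) * (mkP (x u))⁻¹ =
          mkP (x u) * mkP (x t) * ℓ * ((mkP (x t))⁻¹ * (mkP (x u))⁻¹) by group]
      · intro u
        have := hall u
        simpa [map_mul, map_inv] using this
    apply hH
    rw [eq_top_iff]
    intro g _
    have h5 : g ∈ Lx H := hLtop ▸ mem_top _
    have h6 := h5 0
    simpa using h6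
  refine pair_contra hC (S₁ := x z * y y₀ * (x z)⁻¹) (S₂ := x z * (-(y y₀ * x e)) * (x z)⁻¹)
    (hK1.conj _) (hK2.conj _) ?_ ?_ hz
  · have h5 : mkP ((x z * y y₀ * (x z)⁻¹)⁻¹ * (x z * (-(y y₀ * x e)) * (x z)⁻¹)) = mkP (x e) := by
      simp only [map_mul, map_inv, mkP_neg]
      have h6 := mkP_x_comm z e
      calc (mkP (x z) * mkP (y y₀) * (mkP (x z))⁻¹)⁻¹ * (mkP (x z) * (mkP (y y₀) * mkP (x e)) * (mkP (x z))⁻¹)
          = mkP (x z) * mkP (x e) * (mkP (x z))⁻¹ := by group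
        _ = mkP (x e) := by rw [h6]; group
    rw [h5]
    exact heH
  · intro hcomm
    have h5 : y y₀ * (-(y y₀ * x e)) = (-(y y₀ * x e)) * y y₀ := by
      have h6 : x z * (y y₀ * (-(y y₀ * x e))) * (x z)⁻¹ = x z * ((-(y y₀ * x e)) * y y₀) * (x z)⁻¹ := by
        calc x z * (y y₀ * (-(y y₀ * x e))) * (x z)⁻¹
            = x z * y y₀ * (x z)⁻¹ * (x z * (-(y y₀ * x e)) * (x z)⁻¹) := by group
          _ = x z * (-(y y₀ * x e)) * (x z)⁻¹ * (x z * y y₀ * (x z)⁻¹) := hcomm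
          _ = _ := by group
      exact mul_left_cancel (mul_right_cancel h6)
    have h6 := congrArg (fun M : SL(2, F) => M.1 0 0) h5
    simp at h6
    rcases h6 with h6 | h6
    · exact he h6
    · exact hy₀0 h6

/-- Borel overgroups of the root group with a torus element. -/
theorem P1b {H : Subgroup PSL(2, F)} (hC : Crit H) (hU : ∀ t : F, mkP (x t) ∈ H)
    (hB : ∀ Z : SL(2, F), mkP Z ∈ H → Z.1 1 0 = 0) {ν : F} (hν : ν ≠ 0) (hν2 : ν ^ 2 ≠ 1)
    (hd : mkP (d ν hν) ∈ H) : False := by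
  have hK : KEx H (d ν hν) := by
    intro g hg
    obtain ⟨Z, rfl⟩ := mkP_surjective g
    have h1 : Z.1 1 0 = 0 := by
      apply hB
      have := hg 1 (by simpa using hd)
      simpa using this
    have h2 : Z.1 0 1 = 0 := by
      have h3 := hg (mkP w)⁻¹ (by
        rw [inv_inv, ← map_inv, ← map_mul, ← map_mul, w_d_w_inv, ← d_inv ν hν, map_inv]
        exact H.inv_mem hd)
      rw [inv_inv, ← map_inv, ← map_mul, ← map_mul] at h3
      have h4 := hB _ h3
      simpa [w_inv] using h4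
    refine ⟨Z, rfl, ?_⟩
    apply ext2 <;> simp [h1, h2, mul_comm]
  have hν' : ν⁻¹ ≠ 0 := inv_ne_zero hν
  set τ : F := ν + ν⁻¹ with hτ
  have ht : tr (d ν hν) ^ 2 ≠ 4 := by
    rw [tr_d]
    intro h
    have h3 : (ν - ν⁻¹) ^ 2 = 0 := by
      have : (ν - ν⁻¹) ^ 2 = (ν + ν⁻¹) ^ 2 - 4 := by
        field_simp
        ring
      rw [this, h]
      ring
    have h4 : ν - ν⁻¹ = 0 := pow_eq_zero_iff (two_ne_zero) |>.1 h3
    apply hν2
    have h5 : ν = ν⁻¹ := by linear_combination h4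
    calc ν ^ 2 = ν * ν := by ring
      _ = ν * ν⁻¹ := by rw [← h5]
      _ = 1 := mul_inv_cancel₀ hν
  let S₁ : SL(2, F) := sl2 0 (-ν) ν⁻¹ τ (by field_simp; ring)
  let S₂ : SL(2, F) := sl2 0 (-1) 1 τ (by ring)
  have hconj : ∀ S : SL(2, F), tr S = τ → KEx H S := by
    intro S hS
    obtain ⟨A, hA⟩ := Cfsg.Agent.Lib.PSL2.Macbeath.exists_conj_of_tr_eq (d ν hν) S ht (by rw [hS, tr_d])
    rw [← hA]
    exact hK.conj A
  refine pair_contra hC (S₁ := S₁) (S₂ := S₂) (hconj _ (by simp [tr, S₁])) (hconj _ (by simp [tr, S₂])) ?_ ?_ ?_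
  · have h3 : S₁⁻¹ * S₂ = d ν hν * x (τ * (ν - 1) * ν⁻¹) := by
      apply ext2 <;> simp [S₁, S₂] <;> field_simp <;> ring
    rw [h3, map_mul]
    exact H.mul_mem hd (hU _)
  · intro h
    have h3 := congrArg (fun M : SL(2, F) => M.1 0 0) h
    simp [S₁, S₂] at h3
    apply hν2
    calc ν ^ 2 = ν * ν := by ring
      _ = ν * ν⁻¹ := by rw [← h3]
      _ = 1 := mul_inv_cancel₀ hν
  · intro h
    have h3 := hB _ h
    simp [S₁] at h3
    exact hν h3

/-- Characteristic two, without a full root group. -/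
theorem P2e (h4 : 4 ≤ Fintype.card F) (h2 : (2 : F) = 0) {H : Subgroup PSL(2, F)} (hC : Crit H)
    (hH : H ≠ ⊤) (hR : NoRoot H) {e₀ : F} (he₀ : e₀ ≠ 0) (he₀H : mkP (x e₀) ∈ H) : False := by
  classical
  have hsq : ∀ a : F, ∃ r : F, r ^ 2 = a := by
    intro a
    have hchar : ringChar F = 2 := by
      rw [ringChar.eq_iff]
      exact CharTwo.of_one_ne_zero_of_two_eq_zero one_ne_zero h2
    obtain ⟨r, hr⟩ := FiniteField.isSquare_of_char_two hchar a
    exact ⟨r, by rw [hr]; ring⟩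
  -- the additive group `E`
  have hE0 : mkP (x (0 : F)) ∈ H := by simp [H.one_mem]
  have hEadd : ∀ a b : F, mkP (x a) ∈ H → mkP (x b) ∈ H → mkP (x (a + b)) ∈ H := by
    intro a b ha hb
    rw [← mkP_x_mul]
    exact H.mul_mem ha hb
  have hEneg : ∀ a : F, mkP (x a) ∈ H → mkP (x (-a)) ∈ H := by
    intro a ha
    rw [← mkP_x_inv]
    exact H.inv_mem ha
  obtain ⟨e₁, he₁⟩ : ∃ e₁ : F, mkP (x e₁) ∉ H := by
    by_contra hall
    push Not at hall
    apply hR 1
    intro t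
    simpa using hall t
  have he₁0 : e₁ ≠ 0 := by
    rintro rfl
    exact he₁ hE0
  have he₁₀ : e₁ + e₀ ≠ 0 := by
    intro e
    apply he₁
    have : e₁ = -e₀ := by linear_combination e
    rw [this]
    exact hEneg _ he₀H
  -- torus conjugation
  have hconj : ∀ (r : F) (hr : r ≠ 0) (z : F),
      ((mkP (d r hr))⁻¹)⁻¹ * mkP (x z) * (mkP (d r hr))⁻¹ = mkP (x (r ^ 2 * z)) := by
    intro r hr z
    rw [inv_inv, ← map_inv, ← map_mul, ← map_mul, d_x_d_inv]
  have hconj2 : ∀ t : F, t ≠ 0 → ∃ x₀ : PSL(2, F), x₀⁻¹ * mkP (x t) * x₀ ∈ H := by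
    intro t ht
    obtain ⟨r, hr⟩ := hsq (e₀ / t)
    have hr0 : r ≠ 0 := by
      rintro rfl
      have : e₀ / t = 0 := by rw [← hr]; ring
      exact (div_ne_zero he₀ ht) this
    refine ⟨(mkP (d r hr0))⁻¹, ?_⟩
    rw [hconj, hr, show e₀ / t * t = e₀ by field_simp]
    exact he₀H
  obtain ⟨g, hg, hK⟩ := hC (mkP (x e₁))
  have k1 := hK (mkP (x e₁)) (by simp [H.one_mem])
  have k2 := hK (mkP (x (e₁ + e₀))) (by
    rw [mkP_x_inv, mkP_x_mul, show -e₁ + (e₁ + e₀) = e₀ by ring]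
    exact he₀H)
  obtain ⟨G₁, hG₁, hc₁⟩ := kex_x h4 hH hR he₁0 (hconj2 _ he₁0) g k1
  -- `g` is a root element
  obtain ⟨z, rfl⟩ : ∃ z : F, g = mkP (x z) := by
    have hcomm : G₁ * x e₁ = x e₁ * G₁ := hc₁
    rcases eq_x_or_neg_x_of_commute he₁0 hcomm with ⟨t, ht⟩ | ⟨t, ht⟩
    · exact ⟨t, by rw [← hG₁, ht]⟩
    · exact ⟨t, by rw [← hG₁, ht, mkP_neg]⟩
  have hz0 : z ≠ 0 := by
    rintro rfl
    apply he₁
    have : (mkP (x e₁))⁻¹ * mkP (x (0 : F)) ∈ H := hg
    simp only [x_zero, map_one, mul_one] at this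
    simpa using H.inv_mem this
  -- the key property
  have key : ∀ u : F, (∀ a : PSL(2, F), a = mkP (x u) → inK H a (mkP (x z))) → u ≠ 0 →
      ∀ e : F, mkP (x e) ∈ H → mkP (x (z / u * e)) ∈ H := by
    intro u hu hu0 e he
    by_cases he0 : e = 0
    · subst he0
      simpa using hE0
    obtain ⟨r, hr⟩ := hsq (e / u)
    have hr0 : r ≠ 0 := by
      rintro rfl
      have : e / u = 0 := by rw [← hr]; ring
      exact (div_ne_zero he0 hu0) this
    have h3 := hu _ rfl (mkP (d r hr0))⁻¹ (by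
      rw [hconj, hr, show e / u * u = e by field_simp]
      exact he)
    rw [hconj, hr] at h3
    rwa [show e / u * z = z / u * e by field_simp] at h3
  -- multiplier set
  let L : F → Prop := fun l => ∀ e : F, mkP (x e) ∈ H → mkP (x (l * e)) ∈ H
  have hLmul : ∀ a b : F, L a → L b → L (a * b) := by
    intro a b ha hb e he
    rw [mul_assoc]
    exact ha _ (hb _ he)
  have hLone : L 1 := fun e he => by simpa using he
  have hLpow : ∀ (a : F) (n : ℕ), L a → L (a ^ n) := by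
    intro a n ha
    induction n with
    | zero => simpa using hLone
    | succ n ih => rw [pow_succ]; exact hLmul _ _ ih ha
  have hLinv : ∀ a : F, a ≠ 0 → L a → L a⁻¹ := by
    intro a ha hL
    have h3 : a⁻¹ = a ^ (Fintype.card F - 2) := by
      have h5 := FiniteField.pow_card_sub_one_eq_one a ha
      have h6 : Fintype.card F - 1 = (Fintype.card F - 2) + 1 := by omega
      rw [h6, pow_succ] at h5
      exact (eq_inv_of_mul_eq_one_left h5).symm
    rw [h3]
    exact hLpow _ _ hL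
  have hLsub : ∀ a b : F, L a → L b → L (b - a) := by
    intro a b ha hb e he
    rw [sub_mul, sub_eq_add_neg]
    exact hEadd _ _ (hb _ he) (hEneg _ (ha _ he))
  have hl1 : L (z / e₁) := key e₁ (fun a ha => ha ▸ k1) he₁0
  have hl2 : L (z / (e₁ + e₀)) := key (e₁ + e₀) (fun a ha => ha ▸ k2) he₁₀
  have hm1 : L (e₁ / z) := by
    have := hLinv _ (div_ne_zero hz0 he₁0) hl1
    rwa [inv_div] at this
  have hm2 : L ((e₁ + e₀) / z) := by
    have := hLinv _ (div_ne_zero hz0 he₁₀) hl2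
    rwa [inv_div] at this
  have hm3 : L (e₀ / z) := by
    have := hLsub _ _ hm1 hm2
    rwa [show (e₁ + e₀) / z - e₁ / z = e₀ / z by ring] at this
  have hm4 : L (z / e₀) := by
    have := hLinv _ (div_ne_zero he₀ hz0) hm3
    rwa [inv_div] at this
  have hfin := hLmul _ _ hm1 hm4 e₀ he₀H
  apply he₁
  rwa [show e₁ / z * (z / e₀) * e₀ = e₁ by field_simp] at hfin

end Cfsg.Agent.Lib.Binary.Uni
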